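import Mathlib

/-! Doubly transitive groups with an involution whose centraliser has constant fixity: counting. -/

set_option autoImplicit false

namespace Cfsg.Agent.Gp.CF

open MulAction Subgroup Finset

variable {G Ω : Type*} [Group G] [MulAction G Ω]

/-- The number of fixed points. -/
noncomputable def nf (Ω : Type*) [MulAction G Ω] (g : G) : ℕ := Nat.card {x : Ω // g • x = x}

theorem nf_conj (k g : G) : nf Ω (k * g * k⁻¹) = nf Ω g := by
  unfold nf
  refine Nat.card_congr ⟨fun x => ⟨k⁻¹ • x.1, ?_⟩, fun x => ⟨k • x.1, ?_⟩, fun x => ?_, fun x => ?_⟩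
  · have := x.2
    rw [mul_smul, mul_smul] at this
    rw [eq_inv_smul_iff, this]
  · rw [mul_smul, mul_smul, inv_smul_smul, x.2]
  · exact Subtype.ext (smul_inv_smul _ _)
  · exact Subtype.ext (inv_smul_smul _ _)

theorem nf_eq [Fintype Ω] [DecidableEq Ω] (g : G) : nf Ω g = #{x : Ω | g • x = x} := by
  rw [nf, Nat.card_eq_fintype_card, Fintype.card_subtype]

structure H (Ω : Type*) [MulAction G Ω] (t : G) (i : ℕ) : Prop where
  faithful : ∀ g : G, (∀ x : Ω, g • x = x) → g = 1
  two : ∀ a b c d : Ω, a ≠ b → c ≠ d → ∃ g : G, g • a = c ∧ g • b = d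
  t1 : t ≠ 1
  t2 : t * t = 1
  fix : ∀ g : G, Commute g t → g ≠ 1 → nf Ω g = i

theorem card_fib [Fintype G] [DecidableEq Ω] {a b c d : Ω} {k : G} (ha : k • a = c) (hb : k • b = d) :
    #{g : G | g • a = c ∧ g • b = d} = #{g : G | g • a = a ∧ g • b = b} := by
  classical
  refine Finset.card_bij' (fun g _ => k⁻¹ * g) (fun g _ => k * g) ?_ ?_ ?_ ?_
  · intro g hg
    simp only [mem_filter, mem_univ, true_and] at hg ⊢
    rw [mul_smul, mul_smul, hg.1, hg.2, ← ha, ← hb, inv_smul_smul, inv_smul_smul]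
    exact ⟨rfl, rfl⟩
  · intro g hg
    simp only [mem_filter, mem_univ, true_and] at hg ⊢
    rw [mul_smul, mul_smul, hg.1, hg.2]
    exact ⟨ha, hb⟩
  · intro g _; group
  · intro g _; group

theorem card_conj [Fintype G] [DecidableEq G] {t : G} (k : G) :
    #{g : G | g⁻¹ * t * g = k⁻¹ * t * k} = Nat.card (centralizer ({t} : Set G)) := by
  classical
  rw [Nat.card_eq_fintype_card, Fintype.card_subtype]
  refine Finset.card_bij' (fun g _ => g * k⁻¹) (fun g _ => g * k) ?_ ?_ ?_ ?_
  · intro g hg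
    simp only [mem_filter, mem_univ, true_and, mem_centralizer_singleton_iff] at hg ⊢
    calc g * k⁻¹ * t = g * (k⁻¹ * t * k) * k⁻¹ := by group
      _ = t * (g * k⁻¹) := by rw [← hg]; group
  · intro g hg
    simp only [mem_filter, mem_univ, true_and, mem_centralizer_singleton_iff] at hg ⊢
    calc (g * k)⁻¹ * t * (g * k) = k⁻¹ * g⁻¹ * (t * g) * k := by group
      _ = _ := by rw [← hg]; group
  · intro g _; group
  · intro g _; group

variable [Finite G] [Fintype Ω] {t : G} {i : ℕ}

theorem H.dvd (h : H Ω t i) : Nat.card (centralizer ({t} : Set G)) ∣ Fintype.card Ω - i ∧ i < Fintype.card Ω := by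
  classical
  have hi : i < Fintype.card Ω := by
    rw [← h.fix t (Commute.refl t) h.t1, nf_eq]
    refine Finset.card_lt_card (Finset.ssubset_univ_iff.mpr fun e => h.t1 (h.faithful t fun x => ?_))
    have : x ∈ ({x : Ω | t • x = x} : Finset Ω) := by rw [e]; exact mem_univ x
    simpa using this
  refine ⟨?_, hi⟩
  set C := centralizer ({t} : Set G)
  haveI := Fintype.ofFinite C
  haveI : Fintype (Quotient (orbitRel C Ω)) := Fintype.ofFinite _
  have hb := sum_card_fixedBy_eq_card_orbits_mul_card_group C Ω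
  have h1 : ∑ g : C, Fintype.card (fixedBy Ω g) = Fintype.card Ω + (Fintype.card C - 1) * i := by
    rw [← Finset.add_sum_erase _ _ (mem_univ (1 : C))]
    congr 1
    · simp
    · rw [Finset.sum_congr rfl (g := fun _ => i), sum_const, card_erase_of_mem (mem_univ _), card_univ,
        smul_eq_mul]
      intro g hg
      rw [← h.fix g (mem_centralizer_singleton_iff.mp g.2) fun e => (mem_erase.mp hg).1 (Subtype.ext e),
        nf, ← Nat.card_eq_fintype_card]
      rfl
  rw [h1] at hb
  rw [Nat.card_eq_fintype_card]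
  have h0 : 0 < Fintype.card C := Fintype.card_pos
  have h2 : Fintype.card Ω - i + Fintype.card C * i = Fintype.card Ω + (Fintype.card C - 1) * i := by
    obtain ⟨c, hc⟩ := Nat.exists_eq_succ_of_ne_zero h0.ne'
    rw [hc, Nat.succ_sub_one, Nat.succ_mul]
    omega
  exact (Nat.dvd_add_left (dvd_mul_right _ _)).mp (by rw [h2, hb]; exact dvd_mul_left _ _)

theorem H.count (h : H Ω t i) : Nat.card (centralizer ({t} : Set G)) + i = Fintype.card Ω ∧
    ∀ (g : G) (x y : Ω), x ≠ y → g • x = y → g • y = x → IsConj t g := by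
  classical
  haveI := Fintype.ofFinite G
  obtain ⟨a, ha⟩ : ∃ a : Ω, t • a ≠ a := by
    by_contra hc
    push Not at hc
    exact h.t1 (h.faithful t hc)
  have htt : ∀ x : Ω, t • t • x = x := fun x => by rw [← mul_smul, h.t2, one_smul]
  set b := t • a with hb
  set c := Nat.card (centralizer ({t} : Set G))
  set e := #{g : G | g • a = a ∧ g • b = b} with he
  set X : Finset G := {g | t • g • a = g • b}
  set M : Finset Ω := {x | t • x ≠ x}
  set T : Finset G := {s | (s • a = b ∧ s • b = a) ∧ IsConj t s}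
  have hM : #M = Fintype.card Ω - i := by
    rw [← h.fix t (Commute.refl t) h.t1, nf_eq]
    have := Finset.card_filter_add_card_filter_not (s := (univ : Finset Ω)) (fun x => t • x = x)
    rw [card_univ] at this
    simp only [M, ne_eq]
    omega
  have h1 : #X = #M * e := by
    rw [Finset.card_eq_sum_card_fiberwise (f := fun g => g • a) (t := M)]
    · rw [Finset.sum_congr rfl (g := fun _ => e), sum_const, smul_eq_mul]
      intro x hx
      simp only [M, mem_filter, mem_univ, true_and] at hx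
      obtain ⟨k, k1, k2⟩ := h.two a b x (t • x) ha.symm hx.symm
      rw [he, ← card_fib k1 k2]
      congr 1
      ext g
      simp only [X, mem_filter, mem_univ, true_and]
      constructor
      · rintro ⟨h1, h2⟩; exact ⟨h2, by rw [← h1, h2]⟩
      · rintro ⟨h1, h2⟩; exact ⟨by rw [h1, h2], h1⟩
    · intro g hg
      simp only [X, M, coe_filter, mem_univ, true_and, Set.mem_setOf_eq] at hg ⊢
      rw [hg]
      exact fun e => ha (MulAction.injective g e)
  have h2 : #X = #T * c := by
    rw [Finset.card_eq_sum_card_fiberwise (f := fun g => g⁻¹ * t * g) (t := T)]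
    · rw [Finset.sum_congr rfl (g := fun _ => c), sum_const, smul_eq_mul]
      intro s hs
      simp only [T, mem_filter, mem_univ, true_and] at hs
      obtain ⟨k, hk⟩ := isConj_iff.mp hs.2
      have e1 := card_conj (t := t) k⁻¹
      rw [inv_inv, hk] at e1
      refine Eq.trans ?_ e1
      congr 1
      ext g
      simp only [X, mem_filter, mem_univ, true_and]
      refine ⟨fun h => h.2, fun h => ⟨?_, h⟩⟩
      have := hs.1.1
      rwa [← h, mul_smul, mul_smul, inv_smul_eq_iff] at this
    · intro g hg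
      simp only [X, T, coe_filter, mem_univ, true_and, Set.mem_setOf_eq] at hg ⊢
      refine ⟨⟨by rw [mul_smul, mul_smul, hg, inv_smul_smul], ?_⟩, isConj_iff.mpr ⟨g⁻¹, by rw [inv_inv]⟩⟩
      rw [mul_smul, mul_smul, ← hg, htt, inv_smul_smul]
  have h3 : #{g : G | g • a = b ∧ g • b = a} = e := card_fib rfl (htt a)
  have hT : T ⊆ ({g : G | g • a = b ∧ g • b = a} : Finset G) := by
    intro s hs
    simp only [T, mem_filter, mem_univ, true_and] at hs ⊢
    exact hs.1
  have hTe := card_le_card hT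
  have he0 : 0 < e := card_pos.mpr ⟨1, by simp⟩
  obtain ⟨⟨m, hm⟩, hi⟩ := h.dvd
  have hc0 : 0 < c := Nat.card_pos
  have hm0 : 0 < m := by
    rcases Nat.eq_zero_or_pos m with rfl | h0
    · omega
    · exact h0
  have h4 : m * e = #T := by
    refine Nat.eq_of_mul_eq_mul_right hc0 ?_
    rw [← h2, h1, hM, hm]; ring
  have hm1 : m = 1 := by
    by_contra h5
    have : 2 * e ≤ m * e := Nat.mul_le_mul_right _ (by omega)
    omega
  subst hm1
  refine ⟨by omega, fun g x y hxy hx hy => ?_⟩
  have hTT := Finset.eq_of_subset_of_card_le hT (by omega)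
  obtain ⟨k, rfl, rfl⟩ := h.two a b x y ha.symm hxy
  have : k⁻¹ * g * k ∈ T := by
    rw [hTT]
    simp only [mem_filter, mem_univ, true_and, mul_smul, hx, hy, inv_smul_smul, and_self]
  simp only [T, mem_filter, mem_univ, true_and] at this
  exact this.2.trans (isConj_iff.mpr ⟨k, by group⟩)

/-- The consequences of the counting argument, for all involutions at once. -/
structure K (G Ω : Type*) [Group G] [MulAction G Ω] [Fintype Ω] (i : ℕ) : Prop where
  faithful : ∀ g : G, (∀ x : Ω, g • x = x) → g = 1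
  two : ∀ a b c d : Ω, a ≠ b → c ≠ d → ∃ g : G, g • a = c ∧ g • b = d
  inv : ∃ t : G, t ≠ 1 ∧ t * t = 1
  fix : ∀ u : G, u ≠ 1 → u * u = 1 → ∀ g : G, Commute g u → g ≠ 1 → nf Ω g = i
  card : ∀ u : G, u ≠ 1 → u * u = 1 → Nat.card (centralizer ({u} : Set G)) + i = Fintype.card Ω
  sw : ∀ (g : G) (x y : Ω), x ≠ y → g • x = y → g • y = x → g * g = 1

theorem H.k (h : H Ω t i) : K G Ω i := by
  obtain ⟨h1, h2⟩ := h.count
  have hc : ∀ u : G, u ≠ 1 → u * u = 1 → ∃ k : G, k * t * k⁻¹ = u := fun u u1 u2 => by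
    obtain ⟨a, ha⟩ : ∃ a : Ω, u • a ≠ a := by
      by_contra hc
      push Not at hc
      exact u1 (h.faithful u hc)
    exact isConj_iff.mp (h2 u a (u • a) ha.symm rfl (by rw [← mul_smul, u2, one_smul]))
  refine ⟨h.faithful, h.two, ⟨t, h.t1, h.t2⟩, fun u u1 u2 g hg g1 => ?_, fun u u1 u2 => ?_,
    fun g x y hxy hx hy => ?_⟩
  · obtain ⟨k, rfl⟩ := hc u u1 u2
    rw [← nf_conj k⁻¹ g]
    refine h.fix _ ?_ (fun e => g1 (by simpa using (conj_eq_one_iff.mp e)))
    have := hg.eq
    show _ * _ = _ * _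
    calc k⁻¹ * g * k⁻¹⁻¹ * t = k⁻¹ * (g * (k * t * k⁻¹)) * k := by group
      _ = _ := by rw [this]; group
  · obtain ⟨k, rfl⟩ := hc u u1 u2
    rw [← h1]
    congr 1
    refine Nat.card_congr ⟨fun g => ⟨k⁻¹ * g * k, ?_⟩, fun g => ⟨k * g * k⁻¹, ?_⟩, fun g => ?_, fun g => ?_⟩
    · have := mem_centralizer_singleton_iff.mp g.2
      rw [mem_centralizer_singleton_iff]
      calc k⁻¹ * g * k * t = k⁻¹ * (g * (k * t * k⁻¹)) * k := by group
        _ = _ := by rw [this]; group
    · have := mem_centralizer_singleton_iff.mp g.2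
      rw [mem_centralizer_singleton_iff]
      calc k * g * k⁻¹ * (k * t * k⁻¹) = k * (g * t) * k⁻¹ := by group
        _ = _ := by rw [this]; group
    · exact Subtype.ext (by simp only; group)
    · exact Subtype.ext (by simp only; group)
  · obtain ⟨k, rfl⟩ := isConj_iff.mp (h2 g x y hxy hx hy)
    calc k * t * k⁻¹ * (k * t * k⁻¹) = k * (t * t) * k⁻¹ := by group
      _ = 1 := by rw [h.t2]; group

end Cfsg.Agent.Gp.CF
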