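import Mathlib
import Cfsg.Agent.Gp.Big8
import Cfsg.Agent.BG.AmbHall2
import Cfsg.Agent.PLocal.Sims

/-! Groups that are dihedral modulo a normal `2`-subgroup. -/

set_option autoImplicit false

namespace Cfsg.Agent.Gp.Dh

open Subgroup Cfsg BG BG.Amb PGrp LocalEven
open scoped commutatorElement

instance : Fact (Nat.Prime 2) := ⟨Nat.prime_two⟩

/-- An automorphism of order seven of an elementary abelian group of order eight is not
inverted by an involution. -/
theorem e8 {W : Type*} [Group W] [Finite W] (hc : IsMulCommutative W) (h2 : ∀ w : W, w ^ 2 = 1)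
    (h8 : Nat.card W = 8) {a b : MulAut W} (ha : a ^ 7 = 1) (hb : b ^ 2 = 1)
    (hab : b * a * b⁻¹ * a = 1) : a = 1 := by
  letI : CommGroup W := { (inferInstance : Group W) with mul_comm := hc.is_comm.comm }
  have big : ∀ c : MulAut W, c ^ 2 = 1 → 4 ≤ Nat.card (c.toMonoidHom.eqLocus (MonoidHom.id W)) := by
    intro c hc2
    let f : W →* W := MonoidHom.mk' (fun w => w * c w) fun x y => by
      rw [map_mul, mul_mul_mul_comm]
    have h1 : f.ker ≤ c.toMonoidHom.eqLocus (MonoidHom.id W) := fun w hw => by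
      have : w * c w = 1 := hw
      change c w = w
      rw [eq_inv_of_mul_eq_one_right this, eq_comm, eq_inv_iff_mul_eq_one, ← sq, h2]
    have h3 : f.range ≤ c.toMonoidHom.eqLocus (MonoidHom.id W) := by
      rintro _ ⟨w, rfl⟩
      change c (w * c w) = w * c w
      rw [map_mul, ← MulAut.mul_apply, ← sq, hc2, MulAut.one_apply, mul_comm]
    have h4 := card_le_of_le h1
    have h5 := card_le_of_le h3
    have h6 := f.ker.card_mul_index
    rw [index_ker, h8] at h6
    have h7 := card_subgroup_dvd_card (c.toMonoidHom.eqLocus (MonoidHom.id W))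
    rw [h8] at h7
    generalize Nat.card (c.toMonoidHom.eqLocus (MonoidHom.id W)) = n at *
    have h9 : 8 ≤ n * n := h6 ▸ Nat.mul_le_mul h4 h5
    have := Nat.le_of_dvd (by norm_num) h7
    interval_cases n <;> omega
  have h1 := big b hb
  have h3 := big (a * b * a⁻¹) (by rw [conj_pow, hb, mul_one, mul_inv_cancel])
  set F := b.toMonoidHom.eqLocus (MonoidHom.id W)
  set F' := (a * b * a⁻¹).toMonoidHom.eqLocus (MonoidHom.id W)
  have h4 : F ⊓ F' ≠ ⊥ := by
    intro h
    have h5 := card_sup_mul_card_inf (N := F) (H := F') (by rw [normalizer_eq_top]; exact le_top)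
    rw [h, card_bot, mul_one] at h5
    have h6 := card_le_of_le (le_top : F ⊔ F' ≤ ⊤)
    rw [card_top, h8, h5] at h6
    nlinarith
  obtain ⟨w, hw, hw1⟩ := exists_mem_ne_one h4
  have e1 : b w = w := hw.1
  have e2 : (a * b * a⁻¹) w = w := hw.2
  have e3 : a * b * a⁻¹ = a ^ 2 * b := by
    have : b * a * b⁻¹ = a⁻¹ := eq_inv_of_mul_eq_one_left hab
    have h' : b * a⁻¹ * b⁻¹ = a := by rw [← conj_inv, this, inv_inv]
    calc a * b * a⁻¹ = a * (b * a⁻¹ * b⁻¹) * b := by group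
      _ = a ^ 2 * b := by rw [h', sq]
  rw [e3, MulAut.mul_apply, e1] at e2
  have e4 : a w = w := by
    have : a ∈ MulAction.stabilizer (MulAut W) w :=
      mem_of_pow_mem_of_coprime (a := 2) (b := 7) (by norm_num) e2 (ha ▸ one_mem _)
    exact this
  haveI : Fact (Nat.Prime 7) := ⟨by norm_num⟩
  have hp : IsPGroup 7 (zpowers a) := by
    intro g
    refine ⟨1, Subtype.ext ?_⟩
    exact orderOf_dvd_iff_pow_eq_one.mp ((orderOf_dvd_of_mem_zpowers g.2).trans
      (orderOf_dvd_of_pow_eq_one ha))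
  have h5 := hp.card_modEq_card_fixedPoints W
  have h6 : Nat.card (MulAction.fixedPoints (zpowers a) W) =
      Nat.card (a.toMonoidHom.eqLocus (MonoidHom.id W)) := by
    refine Nat.card_congr (Equiv.subtypeEquivRight fun x => ⟨fun h => h ⟨a, mem_zpowers a⟩, ?_⟩)
    rintro h ⟨g, hg⟩
    exact (zpowers_le.mpr (show a ∈ MulAction.stabilizer (MulAut W) x from h)) hg
  rw [h6, h8] at h5
  have h7 := card_subgroup_dvd_card (a.toMonoidHom.eqLocus (MonoidHom.id W))
  have h9 : Nat.card (a.toMonoidHom.eqLocus (MonoidHom.id W)) ≠ 1 := fun h =>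
    hw1 (mem_bot.mp (card_eq_one.mp h ▸ (show w ∈ a.toMonoidHom.eqLocus (MonoidHom.id W) from e4)))
  have h10 : a.toMonoidHom.eqLocus (MonoidHom.id W) = ⊤ := by
    apply eq_top_of_card_eq
    rw [h8] at h7 ⊢
    generalize Nat.card (a.toMonoidHom.eqLocus (MonoidHom.id W)) = n at *
    have := Nat.le_of_dvd (by norm_num) h7
    unfold Nat.ModEq at h5
    omega
  ext x
  exact (h10 ▸ mem_top x : x ∈ a.toMonoidHom.eqLocus (MonoidHom.id W))

theorem cube {W : Type*} [Group W] [Finite W] (hW : IsPGroup 2 W) (h8 : Nat.card W ≤ 8)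
    {a b : MulAut W} (ha : Odd (orderOf a))
    (hb : IsMulCommutative W → b ^ 2 = 1 ∧ b * a * b⁻¹ * a = 1) : a ^ 3 = 1 := by
  have hcop : ∀ j, (orderOf (a ^ j)).Coprime 2 := fun j =>
    (Nat.coprime_two_right.mpr ha).coprime_dvd_left (orderOf_pow_dvd j)
  have odd6 : ∀ {m : ℕ}, a ^ (2 * m) = 1 → a ^ m = 1 := fun {m} h => by
    have : a ^ m ∈ (⊥ : Subgroup (MulAut W)) := mem_of_pow_mem_of_coprime (hcop m)
      (by rw [pow_orderOf_eq_one]; exact one_mem _) (by rw [← pow_mul, mul_comm, h]; exact one_mem _)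
    exact mem_bot.mp this
  by_cases h : (frattini W).index ≤ 2 ^ 2
  · obtain ⟨φ, hφ⟩ := exists_matrix_two_of_index_frattini_le hW h
    have h1 : φ.toHomUnits a ^ 6 = 1 := by
      have := pow_card_eq_one' (x := φ.toHomUnits a)
      rwa [show Nat.card (Matrix (Fin 2) (Fin 2) (ZMod 2))ˣ = 6 from card_GL_two] at this
    have h2 : a ^ (2 * 3) ∈ φ.ker := by
      rw [MonoidHom.mem_ker, map_pow]
      exact congrArg Units.val h1
    exact odd6 (eq_one_of_mem_of_isPGroup_of_coprime hφ h2 (hcop _))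
  · obtain ⟨n, hn⟩ := hW.exists_card_eq
    have h1 := (frattini W).card_mul_index
    have h2 : Nat.card (frattini W) = 1 := by
      have : 0 < Nat.card (frattini W) := Nat.card_pos
      by_contra h'
      have : 2 * 5 ≤ Nat.card (frattini W) * (frattini W).index := Nat.mul_le_mul (by omega) (by omega)
      omega
    rw [h2, one_mul] at h1
    have h3 : Nat.card W = 8 := by
      have h4 : n < 4 := (Nat.pow_lt_pow_iff_right (by norm_num : 1 < 2)).mp (by omega)
      have h5 : 2 < n := (Nat.pow_lt_pow_iff_right (by norm_num : 1 < 2)).mp (by omega)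
      rw [hn, show n = 3 by omega]; rfl
    obtain ⟨hc, h4⟩ := (frattini_eq_bot_iff hW).mp (card_eq_one.mp h2)
    obtain ⟨φ, hφ⟩ := exists_autMatrix (n := 3) hc h4 h3
    have h5 := card_dvd_card_GL φ hφ
    have h6 : Nat.card (GL (Fin 3) (ZMod 2)) = 2 * (2 * (2 * 21)) := by
      rw [Matrix.card_GL_field]
      simp [ZMod.card, Fin.prod_univ_three]
    rw [h6] at h5
    have h7 : a ^ 21 = 1 :=
      odd6 (odd6 (odd6 (orderOf_dvd_iff_pow_eq_one.mp ((orderOf_dvd_natCard a).trans h5))))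
    obtain ⟨h9, h10⟩ := hb hc
    refine e8 hc h4 h3 (by rw [← pow_mul, h7]) h9 ?_
    rw [← conj_pow, eq_inv_of_mul_eq_one_left h10, inv_pow, inv_mul_cancel]

variable {X : Type*} [Group X]

/-- `X / Q` is dihedral of order twice an odd number. -/
structure Dh (Q : Subgroup X) (k s : X) : Prop where
  nrm : Q.Normal
  two : IsPGroup 2 Q
  odd : Odd (orderOf k)
  sq : s ^ 2 ∈ Q
  inv : s * k * s⁻¹ * k ∈ Q
  gen : Q ⊔ zpowers k ⊔ zpowers s = ⊤
  nm : s ∉ Q ⊔ zpowers k

namespace Dh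

variable {Q : Subgroup X} {k s : X}

theorem nQ (h : Dh Q k s) (g : X) : g ∈ 𝐍(Q) := by
  have := h.nrm
  rw [normalizer_eq_top]; trivial

theorem k_mem (h : Dh Q k s) {N : Subgroup X} (hk : k ^ 2 ∈ N) : k ∈ N :=
  mem_of_pow_mem_of_coprime (Nat.coprime_two_right.mpr h.odd)
    (by rw [pow_orderOf_eq_one]; exact one_mem _) hk

theorem eq_one (h : Dh Q k s) {N : Subgroup X} (hN : IsPGroup 2 N) {i : ℤ} (hk : k ^ i ∈ N) :
    k ^ i = 1 :=
  eq_one_of_mem_of_isPGroup_of_coprime hN hk ((Nat.coprime_two_right.mpr h.odd).coprime_dvd_left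
    (orderOf_dvd_of_mem_zpowers ⟨i, rfl⟩))

variable [Finite X]

theorem sN (h : Dh Q k s) : s ∈ 𝐍(Q ⊔ zpowers k) := by
  refine mem_normalizer_of_conj_mem (cj_le_iff'.mp ?_)
  have := h.nrm
  rw [cj_sup, cj_eq_of_normal, cj_zpowers]
  refine sup_le le_sup_left (zpowers_le.mpr ?_)
  have : s * k * s⁻¹ = (s * k * s⁻¹ * k) * k⁻¹ := by group
  rw [this]
  exact mul_mem (mem_sup_left h.inv) (inv_mem (mem_sup_right (mem_zpowers k)))

theorem nK (h : Dh Q k s) : (Q ⊔ zpowers k).Normal := by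
  rw [normal_iff_top_le_normalizer, ← h.gen]
  exact sup_le le_normalizer (zpowers_le.mpr h.sN)

theorem idxK (h : Dh Q k s) : (Q ⊔ zpowers k).index = 2 := by
  rw [← relIndex_top_right, ← h.gen]
  exact relIndex_sup_zpowers Nat.prime_two h.sN (mem_sup_left h.sq) h.nm

theorem solv (h : Dh Q k s) : Group.IsSolvable X := by
  have h1 : Group.IsSolvable ↥(Q ⊔ zpowers k) := solvable_sup (solvable_of_isPGroup h.two)
    (solvable_of_comm inferInstance) (zpowers_le.mpr (h.nQ k))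
  have h2 := solvable_sup h1 (solvable_of_comm (A := zpowers s) inferInstance) (zpowers_le.mpr h.sN)
  rw [h.gen] at h2
  exact Core.solvable_of_mulEquiv topEquiv h2

theorem eq_top (h : Dh Q k s) {N : Subgroup X} (hN : N.Normal) (hQ : Q ≤ N)
    (hn : ¬ N ≤ Q ⊔ zpowers k) : N = ⊤ := by
  obtain ⟨x, hx, hx'⟩ := SetLike.not_le_iff_exists.mp hn
  have h1 : x * s⁻¹ ∈ Q ⊔ zpowers k := by
    rw [mul_mem_iff_of_index_two h.idxK, inv_mem_iff]
    exact iff_of_false hx' h.nm
  obtain ⟨o, ho, i, hi⟩ := (mem_sup_zpowers (h.nQ k)).mp h1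
  have h2 : k ^ i * s ∈ N := by
    have : k ^ i * s = o⁻¹ * x := by rw [eq_inv_mul_iff_mul_eq, ← mul_assoc, hi]; group
    rw [this]
    exact mul_mem (inv_mem (hQ ho)) hx
  have h3 : k ∈ N := by
    apply h.k_mem
    have : k ^ 2 = k * (k ^ i * s) * k⁻¹ * (k ^ i * s)⁻¹ *
        (k ^ i * (s * k * s⁻¹ * k) * (k ^ i)⁻¹) := by group
    rw [this]
    exact mul_mem (mul_mem (hN.conj_mem _ h2 k) (inv_mem h2)) (hN.conj_mem _ (hQ h.inv) _)
  rw [eq_top_iff, ← h.gen]
  exact sup_le (sup_le hQ (zpowers_le.mpr h3))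
    (zpowers_le.mpr ((N.mul_mem_cancel_left (zpow_mem h3 i)).mp h2))

omit [Finite X] in
theorem relP (h : Dh Q k s) : Q.relIndex (Q ⊔ zpowers s) = 2 :=
  relIndex_sup_zpowers Nat.prime_two (h.nQ s) h.sq fun h' => h.nm (mem_sup_left h')

theorem cardP (h : Dh Q k s) : Nat.card ↥(Q ⊔ zpowers s) = Nat.card Q * 2 := by
  rw [card_eq_card_mul_relIndex (le_sup_left : Q ≤ Q ⊔ zpowers s), h.relP]

theorem twoP (h : Dh Q k s) : IsPGroup 2 ↥(Q ⊔ zpowers s) := by
  obtain ⟨n, hn⟩ := h.two.exists_card_eq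
  exact IsPGroup.of_card (n := n + 1) (by rw [h.cardP, hn, pow_succ])

omit [Finite X] in
theorem infP (h : Dh Q k s) : (Q ⊔ zpowers s) ⊓ (Q ⊔ zpowers k) = Q :=
  (eq_or_eq_of_relIndex_prime Nat.prime_two h.relP (le_inf le_sup_left le_sup_left)
    inf_le_left).resolve_right fun h' =>
      h.nm (inf_eq_left.mp h' (mem_sup_right (mem_zpowers s)))

omit [Finite X] in
theorem supP (h : Dh Q k s) : (Q ⊔ zpowers s) ⊔ cj k (Q ⊔ zpowers s) = ⊤ := by
  rw [eq_top_iff, ← h.gen]
  have h1 : s ∈ (Q ⊔ zpowers s) ⊔ cj k (Q ⊔ zpowers s) :=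
    mem_sup_left (mem_sup_right (mem_zpowers s))
  refine sup_le (sup_le (le_sup_left.trans le_sup_left) (zpowers_le.mpr (h.k_mem ?_)))
    (zpowers_le.mpr h1)
  have : k ^ 2 = k * s * k⁻¹ * s⁻¹ * (s * k * s⁻¹ * k) := by rw [pow_two]; group
  rw [this]
  exact mul_mem (mul_mem (mem_sup_right (conj_mem_cj (mem_sup_right (mem_zpowers s)))) (inv_mem h1))
    (mem_sup_left (mem_sup_left h.inv))

omit [Finite X] in
theorem not_two (h : Dh Q k s) (hk : k ≠ 1) {N : Subgroup X} (hN : IsPGroup 2 N) : N ≠ ⊤ := by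
  rintro rfl
  exact hk (by simpa using h.eq_one hN (i := 1) (mem_top _))

theorem not_nrm (h : Dh Q k s) (hk : k ≠ 1) : k ∉ 𝐍(Q ⊔ zpowers s) := by
  intro h'
  have := h.supP
  rw [cj_eq_of_mem_normalizer h', sup_idem] at this
  exact h.not_two hk h.twoP this

theorem inf_cj (h : Dh Q k s) (hk : k ≠ 1) : (Q ⊔ zpowers s) ⊓ cj k (Q ⊔ zpowers s) = Q := by
  have := h.nrm
  refine (eq_or_eq_of_relIndex_prime Nat.prime_two h.relP (le_inf le_sup_left ?_)
    inf_le_left).resolve_right fun h' => h.not_nrm hk (cj_eq_self_iff.mp ?_)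
  · conv_lhs => rw [← cj_eq_of_normal k Q]
    exact cj_mono k le_sup_left
  · exact (PGrp.eq_of_le_of_card_le (inf_eq_left.mp h') (card_cj _ _).le).symm

theorem le_Q (h : Dh Q k s) (hk : k ≠ 1) {N : Subgroup X} (hN : N.Normal) (h2 : IsPGroup 2 N) :
    N ≤ Q := by
  have := h.nrm
  have h3 : IsPGroup 2 ↥(N ⊔ Q) := h2.to_sup_of_normal_right h.two
  have h1 : N ⊔ Q ≤ Q ⊔ zpowers k := by
    by_contra h'
    exact h.not_two hk h3 (h.eq_top inferInstance le_sup_right h')
  intro x hx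
  obtain ⟨o, ho, i, rfl⟩ := (mem_sup_zpowers (h.nQ k)).mp (h1 (mem_sup_left hx))
  have h4 : k ^ i ∈ N ⊔ Q := ((N ⊔ Q).mul_mem_cancel_left (mem_sup_right ho)).mp (mem_sup_left hx)
  rwa [h.eq_one h3 h4, mul_one]

theorem core (h : Dh Q k s) (hk : k ≠ 1) : pCore 2 X = Q :=
  le_antisymm (h.le_Q hk inferInstance (Core.pCore_isPGroup 2)) (Core.le_pCore h.nrm h.two)

theorem map (h : Dh Q k s) (F : Subgroup X) [F.Normal] (hF : (Nat.card F).Coprime 2) :
    Dh (Q.map (QuotientGroup.mk' F)) (k : X ⧸ F) (s : X ⧸ F) := by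
  have hs := QuotientGroup.mk'_surjective F
  refine ⟨h.nrm.map _ hs, h.two.map _, h.odd.of_dvd_nat (orderOf_map_dvd (QuotientGroup.mk' F) k),
    ⟨_, h.sq, rfl⟩, ⟨_, h.inv, rfl⟩, ?_, ?_⟩
  · have := congrArg (Subgroup.map (QuotientGroup.mk' F)) h.gen
    rwa [Subgroup.map_sup, Subgroup.map_sup, MonoidHom.map_zpowers, MonoidHom.map_zpowers,
      map_top_of_surjective _ hs] at this
  · intro h'
    have h1 : (s : X ⧸ F) ∈ (Q ⊔ zpowers k).map (QuotientGroup.mk' F) := by
      rwa [Subgroup.map_sup, MonoidHom.map_zpowers]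
    obtain ⟨x, hx, he⟩ := h1
    have h2 : x⁻¹ * s ∈ F := QuotientGroup.eq.mp he
    have h3 : x⁻¹ * s ∈ Q ⊔ zpowers k := mem_of_pow_mem_of_coprime
      (hF.coprime_dvd_left (orderOf_dvd_natCard F h2))
      (by rw [pow_orderOf_eq_one]; exact one_mem _) (sq_mem_of_index_two h.idxK _)
    exact h.nm (((Q ⊔ zpowers k).mul_mem_cancel_left (inv_mem hx)).mp h3)

theorem eq_P (h : Dh Q k s) {S : Subgroup X} (h2 : IsPGroup 2 S) (hS : Q ⊔ zpowers s ≤ S) :
    Q ⊔ zpowers s = S := by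
  refine le_antisymm hS fun x hx => ?_
  have key : ∀ y ∈ S, y ∈ Q ⊔ zpowers k → y ∈ Q := fun y hy hy' => by
    obtain ⟨o, ho, i, rfl⟩ := (mem_sup_zpowers (h.nQ k)).mp hy'
    have h4 : k ^ i ∈ S := (S.mul_mem_cancel_left (hS (mem_sup_left ho))).mp hy
    rwa [h.eq_one h2 h4, mul_one]
  by_cases hx' : x ∈ Q ⊔ zpowers k
  · exact mem_sup_left (key x hx hx')
  · have hs : s ∈ Q ⊔ zpowers s := mem_sup_right (mem_zpowers s)
    have h1 : x * s⁻¹ ∈ Q ⊔ zpowers k := by
      rw [mul_mem_iff_of_index_two h.idxK, inv_mem_iff]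
      exact iff_of_false hx' h.nm
    exact ((Q ⊔ zpowers s).mul_mem_cancel_right (inv_mem hs)).mp
      (mem_sup_left (key _ (mul_mem hx (inv_mem (hS hs))) h1))

theorem three (h : Dh Q k s) (hk : k ≠ 1) (hc : 𝐂(Q) ≤ Q) (h32 : Nat.card Q ≤ 32)
    (hZ : ¬ (omegaOneCenter 2 (Q ⊔ zpowers s)).Normal)
    (hJ : ¬ (thompsonSubgroupOf 2 (Q ⊔ zpowers s)).Normal) : k ^ 3 = 1 := by
  have hQ := h.core hk
  have := h.nrm
  have := h.nK
  obtain ⟨S, hS⟩ := h.twoP.exists_le_sylow
  have hS' : Q ⊔ zpowers s = S := h.eq_P S.isPGroup' hS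
  have hc' : 𝐂(pCore 2 X) ≤ pCore 2 X := by rwa [hQ]
  have h1 := Transfer.pCore_le_centralizer_omegaClosure hc'
  have hV := Transfer.ea_omegaClosure hc'
  have hVQ : Transfer.omegaClosure 2 X ≤ Q :=
    hQ ▸ (Transfer.omegaClosure_le_omegaOneCenter_pCore hc').trans (omegaOneCenter_le _)
  have hZV := Transfer.omegaOneCenter_le_omegaClosure S
  have hex := PLocal.exists_SL2_of_not_le (isPSolvable_of_solvable h.solv) hV
    Transfer.pCore_quotient_centralizer_omegaClosure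
  rw [hQ] at h1
  rw [← hS'] at hZV
  set V := Transfer.omegaClosure 2 X with hVd
  have hZ' : ¬ k ∈ 𝐂(omegaOneCenter 2 (Q ⊔ zpowers s)) := fun h' => hZ (by
    rw [normal_iff_top_le_normalizer, ← h.gen, sup_right_comm]
    exact le_norm_of_le_cent (sup_le (le_centralizer_omegaOneCenter _) (zpowers_le.mpr h')))
  have hkC : k ∉ 𝐂(V) := fun h' => hZ' (cent_anti hZV h')
  have hCK : 𝐂(V) ≤ Q ⊔ zpowers k := by
    by_contra h'
    exact hkC (h.eq_top inferInstance h1 h' ▸ mem_top k)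
  have hJ' : ¬ thompsonSubgroup 2 X ≤ Q ⊔ zpowers k := fun h' => hJ (by
    rw [← Transfer.thompsonSubgroupOf_eq_of_le (U := Q) ?_ le_sup_left]
    · exact Transfer.thompsonSubgroupOf_normal _
    · conv_rhs => rw [← h.infP]
      exact le_inf (Transfer.thompsonSubgroupOf_le _)
        ((hS' ▸ Transfer.thompsonSubgroupOf_sylow_le S).trans h'))
  obtain ⟨-, E, e1, -, e3, _, ⟨e⟩⟩ := hex fun h' => hJ' (h'.trans hCK)
  have h6 : 𝐂(V).relIndex E = 6 := by
    rw [relIndex, index_eq_card, Nat.card_congr e.toEquiv, PLocal.card_SL2_zmod]; norm_num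
  rw [h.eq_top (N := thompsonSubgroup 2 X ⊔ 𝐂(V)) inferInstance (h1.trans le_sup_right)
    fun h' => hJ' (le_sup_left.trans h'), ← normal_iff_top_le_normalizer] at e3
  have hodd : Odd (𝐂(V).relIndex (Q ⊔ zpowers k)) := by
    refine h.odd.of_dvd_nat ((relIndex_dvd_of_le_left _ h1).trans ?_)
    exact relIndex_sup_zpowers_dvd (h.nQ k) (by rw [pow_orderOf_eq_one]; exact one_mem _)
  have hE : E = ⊤ := h.eq_top e3 (h1.trans e1) fun h' => by
    have := relIndex_mul_relIndex _ _ _ e1 h'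
    rw [← this, h6, Nat.odd_mul] at hodd
    exact absurd hodd.1 (by decide)
  rw [hE, relIndex_top_right, ← relIndex_mul_index hCK, h.idxK] at h6
  have hk3 : k ^ 3 ∈ 𝐂(V) := pow_mem_of_relIndex_eq (P := Q ⊔ zpowers k)
    (by rw [normalizer_eq_top]; exact le_top) (by omega) (mem_sup_right (mem_zpowers k))
  have hV4 : 4 ≤ Nat.card V := Big8.four_le (h.two.to_le hVQ) fun h' => hkC (zpowers_le.mp
    (Big8.cyc (h.two.to_le hVQ) h' (by rw [Nat.card_zpowers]; exact Nat.coprime_two_right.mpr h.odd)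
      (by rw [normalizer_eq_top]; exact le_top)))
  -- the quotient by `V`
  set W := Q.map (QuotientGroup.mk' V) with hW
  have hWn : W.Normal := h.nrm.map _ (QuotientGroup.mk'_surjective V)
  have hW8 : Nat.card W ≤ 8 := by
    have h2 : Nat.card W = V.relIndex Q := by
      rw [hW, ← relIndex_ker, QuotientGroup.ker_mk']
    have h3 := card_eq_card_mul_relIndex hVQ
    rw [h2]
    nlinarith
  let ρ : X →* MulAut W := (MulAut.conjNormal (H := W)).comp (QuotientGroup.mk' V)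
  have hρ : ∀ g : X, ρ g = 1 ↔ ∀ x ∈ Q, ⁅g, x⁆ ∈ V := fun g => by
    constructor
    · intro h' x hx
      have := congrArg Subtype.val (DFunLike.congr_fun h' ⟨(x : X ⧸ V), x, hx, rfl⟩)
      rw [← QuotientGroup.eq_one_iff, commutatorElement_def]
      simp only [QuotientGroup.mk_mul, QuotientGroup.mk_inv]
      rw [mul_inv_eq_one]
      exact this
    · intro h'
      ext ⟨_, x, hx, rfl⟩
      have := (QuotientGroup.eq_one_iff _).mpr (h' x hx)
      rw [commutatorElement_def] at this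
      simp only [QuotientGroup.mk_mul, QuotientGroup.mk_inv] at this
      exact mul_inv_eq_one.mp this
  have h7 : ρ k ^ 3 = 1 := by
    refine cube (h.two.map _) hW8 (b := ρ s) (h.odd.of_dvd_nat (orderOf_map_dvd ρ k)) fun hc => ?_
    have key : ∀ g ∈ Q, ρ g = 1 := fun g hg => by
      ext x
      have := congrArg Subtype.val (hc.is_comm.comm ⟨(g : X ⧸ V), g, hg, rfl⟩ x)
      exact mul_inv_eq_iff_eq_mul.mpr this
    exact ⟨by rw [← map_pow, key _ h.sq], by simpa using key _ h.inv⟩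
  rw [← map_pow, hρ] at h7
  have h8 : zpowers (k ^ 3) ≤ 𝐂(Q) := by
    refine Core.le_centralizer_of_commutator_le_of_centralizes _ Q V (Big8.cop (h.two.to_le hVQ) ?_)
      (zpowers_le.mpr hk3) ?_
    · rw [Nat.card_zpowers]
      exact (Nat.coprime_two_right.mpr h.odd).coprime_dvd_left (orderOf_pow_dvd 3)
    · rw [commutator_le]
      rintro x hx _ ⟨i, rfl⟩
      exact commutator_symm_mem (commutator_zpow_left_mem (by rw [normalizer_eq_top]; trivial)
        (h7 x hx) i)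
  exact_mod_cast h.eq_one h.two (i := 3) (by exact_mod_cast hc (zpowers_le.mp h8))

end Dh

end Cfsg.Agent.Gp.Dh
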