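import Mathlib
import Cfsg.Agent.Gp.Dh1
import Cfsg.Agent.H23.Sims

/-! The amalgam attached to a group that is dihedral modulo its largest normal `2`-subgroup. -/

set_option autoImplicit false

namespace Cfsg.Agent.Gp.Dh

open Subgroup Cfsg BG BG.Amb PGrp LocalEven
open scoped commutatorElement Pointwise

universe u

theorem hnn {X : Type u} [Group X] (T : Subgroup X) (τ : T ≃* T) :
    ∃ (Y : Type u) (_ : Group Y) (f : X →* Y) (x : Y), Function.Injective f ∧
      (∀ a : T, x * f a * x⁻¹ = f (τ a)) ∧ f.range ⊓ cj x f.range = T.map f := by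
  refine ⟨HNNExtension X T T τ, inferInstance, HNNExtension.of, HNNExtension.t,
    HNNExtension.of_injective τ, fun a => (HNNExtension.equiv_eq_conj a).symm, ?_⟩
  refine le_antisymm ?_ (le_inf (map_le_range _ _) ?_)
  · rintro z ⟨h1, h2⟩
    obtain ⟨_, ⟨b, rfl⟩, rfl⟩ := mem_cj'.mp h2
    by_cases hb : b ∈ T
    · exact ⟨τ ⟨b, hb⟩, (τ ⟨b, hb⟩).2, HNNExtension.equiv_eq_conj ⟨b, hb⟩⟩
    · exfalso
      let w : HNNExtension.NormalWord.ReducedWord X T T :=
        ⟨1, [(1, b), (-1, 1)], by simp [hb]⟩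
      have := HNNExtension.ReducedWord.toList_eq_nil_of_mem_of_range τ w (by
        simpa [w, HNNExtension.NormalWord.ReducedWord.prod, mul_assoc] using h1)
      simp [w] at this
  · rintro _ ⟨a, ha, rfl⟩
    refine mem_cj'.mpr ⟨_, ⟨τ.symm ⟨a, ha⟩, rfl⟩, ?_⟩
    rw [← HNNExtension.equiv_eq_conj, MulEquiv.apply_symm_apply]

theorem Dh.amalg {X : Type u} [Group X] [Finite X] {Q : Subgroup X} {k s : X} (h : Dh Q k s)
    (hk : k ≠ 1) (hc : 𝐂(Q) ≤ Q) (h32 : Nat.card Q ≤ 32) {T : Subgroup X}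
    (hT : T = Q ⊔ zpowers s) (τ : T ≃* T)
    (hf : ∀ N : Subgroup T, (N.map T.subtype).Normal →
      ((N.comap τ.toMonoidHom).map T.subtype).Normal → N = ⊥) :
    Nat.card X = Nat.card T * 3 ∧ (Nonempty (X ≃* Equiv.Perm (Fin 4)) ∨
      Nonempty (X ≃* Equiv.Perm (Fin 4) × Multiplicative (ZMod 2))) := by
  obtain ⟨Y, _, f, x, hinj, hx, hM⟩ := hnn T τ
  have hxN : x ∈ 𝐍(T.map f) := by
    rw [← cj_eq_self_iff]
    refine le_antisymm (cj_le_iff'.mpr ?_) ?_
    · rintro _ ⟨a, ha, rfl⟩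
      exact ⟨_, (τ ⟨a, ha⟩).2, (hx ⟨a, ha⟩).symm⟩
    · rw [← hM]
      rintro _ ⟨⟨a, rfl⟩, h2⟩
      have : f a ∈ T.map f := hM ▸ ⟨⟨a, rfl⟩, h2⟩
      obtain ⟨b, hb, hab⟩ := this
      refine mem_cj'.mpr ⟨f (τ.symm ⟨b, hb⟩), hM ▸ ⟨_, (τ.symm ⟨b, hb⟩).2, rfl⟩, ?_⟩
      rw [hx, MulEquiv.apply_symm_apply, hab]
  have key : ∀ N ≤ T.map f, f.range ≤ 𝐍(N) →
      ((N.comap (f.comp T.subtype)).map T.subtype).Normal := fun N h1 h2 => ⟨by
    rintro _ ⟨a, ha, rfl⟩ g
    have h3 : f (g * a * g⁻¹) ∈ N := by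
      rw [map_mul, map_mul, map_inv]
      exact conj_mem_of_le_norm h2 ⟨g, rfl⟩ ha
    obtain ⟨b, hb, hab⟩ := h1 h3
    exact ⟨⟨b, hb⟩, by simpa [hab] using h3, hinj hab⟩⟩
  have faith : ∀ N ≤ T.map f, f.range ≤ 𝐍(N) → cj x f.range ≤ 𝐍(N) → N = ⊥ := by
    intro N h1 h2 h3
    have h4 := key (cj x⁻¹ N) (cj_le_of_mem_normalizer (inv_mem hxN) h1) (by
      rw [← cj_normalizer, le_cj_iff, inv_inv]; exact h3)
    have h5 : (cj x⁻¹ N).comap (f.comp T.subtype) =
        (N.comap (f.comp T.subtype)).comap τ.toMonoidHom := by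
      ext a
      rw [mem_comap, mem_cj_inv]
      change x * f a * x⁻¹ ∈ N ↔ f (τ a) ∈ N
      rw [hx]
    have h6 := hf _ (key N h1 h2) (h5 ▸ h4)
    rw [eq_bot_iff]
    intro z hz
    obtain ⟨a, ha, rfl⟩ := h1 hz
    have : (⟨a, ha⟩ : T) ∈ N.comap (f.comp T.subtype) := hz
    rw [h6, mem_bot] at this
    rw [show a = 1 from congrArg Subtype.val this, map_one]
    exact one_mem _
  have h2 : IsPGroup 2 T := hT ▸ h.twoP
  have T0 : T ≠ ⊥ := fun h' => h.nm (by
    have : s ∈ T := hT ▸ mem_sup_right (mem_zpowers s)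
    rw [h', mem_bot] at this
    rw [this]; exact one_mem _)
  have ch : ∀ N : Subgroup X, N ≤ T → N.Normal → x ∈ 𝐍(N.map f) → N = ⊥ := fun N h1 h3 h4 => by
    have h5 : f.range ≤ 𝐍(N.map f) := by
      rintro _ ⟨g, rfl⟩
      exact le_normalizer_map f (mem_map_of_mem f (by rw [normalizer_eq_top]; trivial))
    have := faith _ (map_mono h1) h5 (cj_le_of_mem_normalizer (le_norm_norm le_rfl h4) h5)
    rwa [map_eq_bot_iff_of_injective _ hinj] at this
  have h3 : k ^ 3 = 1 := by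
    refine h.three hk hc h32 (fun h' => ?_) fun h' => ?_
    · rw [← hT] at h'
      exact omegaOneCenter_ne_bot h2 T0 (ch _ (omegaOneCenter_le T) h' (by
        rw [map_omegaOneCenter_of_injective f hinj]
        exact normalizer_le_normalizer_omegaOneCenter _ hxN))
    · rw [← hT] at h'
      exact Transfer.thompsonSubgroupOf_ne_bot_of_isPGroup h2 T0
        (ch _ (Transfer.thompsonSubgroupOf_le T) h' (by
          rw [Transfer.map_thompsonSubgroupOf_of_injective _ hinj]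
          exact Transfer.normalizer_le_normalizer_thompsonSubgroupOf _ hxN))
  have h4 : T.index = 3 := by
    have h5 : Q.relIndex (Q ⊔ zpowers k) = 3 := relIndex_sup_zpowers Nat.prime_three (h.nQ k)
      (h3 ▸ one_mem _) fun h' => hk (by simpa using h.eq_one h.two (i := 1) (by simpa using h'))
    have h6 := relIndex_mul_index (le_sup_left : Q ≤ Q ⊔ zpowers k)
    have h7 := relIndex_mul_index (le_sup_left : Q ≤ Q ⊔ zpowers s)
    rw [h5, h.idxK] at h6
    rw [h.relP, ← hT] at h7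
    omega
  refine ⟨by rw [← T.card_mul_index, h4], ?_⟩
  have e := MonoidHom.ofInjective hinj
  have : Finite f.range := Finite.of_equiv _ e.toEquiv
  have h5 := (PLocal.sym_struct hxN hM (h2.map f) (by
    rw [MonoidHom.range_eq_map, relIndex_map_map_of_injective _ _ hinj, relIndex_top_right, h4])
    (fun h' => h.not_nrm hk (by
      rw [← hT]
      refine mem_normalizer_of_conj_mem fun a ha => ?_
      obtain ⟨b, hb, hab⟩ := conj_mem_of_le_norm h' ⟨k, rfl⟩ (mem_map_of_mem f ha)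
      rw [← map_inv, ← map_mul, ← map_mul] at hab
      exact hinj hab ▸ hb)) faith).1 (by
    rw [LocalEven.charP_iff, ← Core.map_pCore_equiv 2 e, h.core hk]
    intro z hz
    obtain ⟨z, rfl⟩ := e.surjective z
    refine ⟨z, hc fun a ha => e.injective ?_, rfl⟩
    rw [map_mul, map_mul]
    exact hz _ ⟨a, ha, rfl⟩)
  exact h5.imp (fun ⟨e'⟩ => ⟨e.trans e'⟩) fun ⟨e'⟩ => ⟨e.trans e'⟩

theorem exists_dh {X : Type*} [Group X] [Finite X] {n : ℕ} (hn : 2 ≤ n)
    (e : X ⧸ pCore 2 X ≃* DihedralGroup n) {P : Subgroup X} (hP : IsPGroup 2 P)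
    (hi : ¬ 2 ∣ P.index) : ∃ k s : X, Dh (pCore 2 X) k s ∧ k ≠ 1 ∧ P = pCore 2 X ⊔ zpowers s := by
  haveI : NeZero n := ⟨by omega⟩
  haveI : Fact (1 < n) := ⟨hn⟩
  set O := pCore 2 X with hO
  let π : X →* DihedralGroup n := e.toMonoidHom.comp (QuotientGroup.mk' O)
  have hs : Function.Surjective π := e.surjective.comp (QuotientGroup.mk'_surjective O)
  have hk : ∀ x, π x = 1 ↔ x ∈ O := fun x => by
    rw [← QuotientGroup.eq_one_iff]
    exact e.map_eq_one_iff
  have hker : π.ker = O := by ext x; exact hk x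
  have h2 := Core.pCore_isPGroup (G := X) 2
  have hodd : Odd n := by
    by_contra h
    obtain ⟨m, hm⟩ := Nat.not_odd_iff_even.mp h
    have h1 : (m : ZMod n) + m = 0 := by rw [← Nat.cast_add, ← hm, ZMod.natCast_self]
    have h3 : ∀ g : DihedralGroup n, g * DihedralGroup.r m = DihedralGroup.r m * g := by
      rintro (i | i)
      · simp [add_comm]
      · simp only [DihedralGroup.sr_mul_r, DihedralGroup.r_mul_sr]
        congr 1
        linear_combination h1
    have h4 : (zpowers (DihedralGroup.r (m : ZMod n))).Normal :=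
      normal_of_le_center (zpowers_le.mpr (mem_center_iff.mpr h3))
    have h5 : IsPGroup 2 (zpowers (DihedralGroup.r (m : ZMod n))) := fun g =>
      ⟨1, Subtype.ext (orderOf_dvd_iff_pow_eq_one.mp ((orderOf_dvd_of_mem_zpowers g.2).trans
        (orderOf_dvd_of_pow_eq_one (by simp [sq, h1]))))⟩
    have h6 : (zpowers (DihedralGroup.r (m : ZMod n))).comap π ≤ O :=
      Core.le_pCore inferInstance (h5.comap_of_ker_isPGroup _ (hker ▸ h2))
    obtain ⟨a, ha⟩ := hs (DihedralGroup.r m)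
    have h7 := (hk a).mpr (h6 (by rw [mem_comap, ha]; exact mem_zpowers _))
    rw [ha, DihedralGroup.one_def, DihedralGroup.r.injEq, ZMod.natCast_eq_zero_iff] at h7
    have := Nat.le_of_dvd (by omega) h7
    omega
  obtain ⟨a, ha⟩ := hs (DihedralGroup.r 1)
  obtain ⟨j, u, hu, hj⟩ := Nat.exists_eq_two_pow_mul_odd (orderOf_pos a).ne'
  have hko : Odd (orderOf (a ^ 2 ^ j)) :=
    hu.of_dvd_nat (orderOf_dvd_of_pow_eq_one (by rw [← pow_mul, ← hj, pow_orderOf_eq_one]))
  have han : a ^ n ∈ O := by rw [← hk, map_pow, ha, DihedralGroup.r_one_pow_n]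
  have hcop : n.Coprime (2 ^ j) := (Nat.coprime_two_right.mpr hodd).pow_right j
  have haK : a ∈ O ⊔ zpowers (a ^ 2 ^ j) :=
    mem_of_pow_mem_of_coprime hcop (mem_sup_left han) (mem_sup_right (mem_zpowers _))
  have hK : O ⊔ zpowers (a ^ 2 ^ j) = (zpowers (DihedralGroup.r 1)).comap π := by
    refine le_antisymm (sup_le (fun x hx => ?_) (zpowers_le.mpr ?_)) ?_
    · rw [mem_comap, (hk x).mpr hx]; exact one_mem _
    · rw [mem_comap, map_pow, ha]; exact pow_mem (mem_zpowers _) _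
    · rintro x ⟨i, hi⟩
      have : x * (a ^ i)⁻¹ ∈ O := by
        rw [← hk, map_mul, map_inv, map_zpow, ha, ← hi, mul_inv_cancel]
      exact ((O ⊔ zpowers (a ^ 2 ^ j)).mul_mem_cancel_right (inv_mem (zpow_mem haK i))).mp
        (mem_sup_left this)
  have hr : ∀ i : ZMod n, DihedralGroup.r i ∈ zpowers (DihedralGroup.r (1 : ZMod n)) := fun i =>
    ⟨i.val, by simp⟩
  have hidx : (O ⊔ zpowers (a ^ 2 ^ j)).index = 2 := by
    rw [hK, index_comap_of_surjective _ hs]
    have := (zpowers (DihedralGroup.r (1 : ZMod n))).card_mul_index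
    rw [Nat.card_zpowers, DihedralGroup.orderOf_r_one, DihedralGroup.nat_card, mul_comm 2] at this
    exact Nat.eq_of_mul_eq_mul_left (by omega) this
  obtain ⟨s, hsP, hsK⟩ := SetLike.not_le_iff_exists.mp fun h : P ≤ O ⊔ zpowers (a ^ 2 ^ j) =>
    hi (hidx ▸ index_dvd_of_le h)
  obtain ⟨i, hi'⟩ : ∃ i, π s = DihedralGroup.sr i := by
    rcases h : π s with i | i
    · exact absurd (by rw [hK, mem_comap, h]; exact hr i) hsK
    · exact ⟨i, rfl⟩
  have hD : Dh O (a ^ 2 ^ j) s := by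
    refine ⟨inferInstance, h2, hko, ?_, ?_, sup_zpowers_eq_top_of_index_prime Nat.prime_two hidx hsK,
      hsK⟩
    · rw [← hk, map_pow, hi', sq, DihedralGroup.sr_mul_self]
    · rw [← hk]
      simp [hi', ha]
  refine ⟨_, s, hD, fun h => ?_, (hD.eq_P hP (sup_le ?_ (zpowers_le.mpr hsP))).symm⟩
  · have : a ∈ O := mem_of_pow_mem_of_coprime hcop han (h ▸ one_mem _)
    rw [← hk, ha, DihedralGroup.one_def, DihedralGroup.r.injEq] at this
    exact one_ne_zero this
  · exact Core.pCore_le_sylow (hP.toSylow hi)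

end Cfsg.Agent.Gp.Dh
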