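import Mathlib
import Cfsg.Agent.Inv.MCl4

/-!
# Uniform elements in `p`-groups of maximal class
-/

set_option autoImplicit false

namespace Cfsg.Agent.Gp.MX

open Subgroup Cfsg.Agent.H23.Kr Cfsg.Agent.Inv.Rg Cfsg.Agent.Inv.Es
open scoped commutatorElement

universe u

variable {T : Type u} [Group T] {p n : ℕ} [hp : Fact p.Prime] [Finite T]

theorem good_of_two (h : MCl p T n) {t : T} (h1 : t ∉ KK T 2) (h2 : t ∉ KK T (n - 2)) :
    Good t n := ⟨h1, fun i h3 h5 => by
  rcases (show i ≤ n - 2 by omega).lt_or_eq with h6 | rfl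
  · rwa [h.ne_sub_two i h3 h6]
  · exact h2⟩

theorem chain (h : MCl p T n) {D : Subgroup T} {v : T} (hv : Good v n)
    (hD : ∀ w ∈ D, ⁅v, w⁆ ∈ D) :
    ∀ k j, j + k = n → 2 ≤ j → ∀ w ∈ D, w ∈ Γ T j → w ∉ Γ T (j + 1) → Γ T j ≤ D := by
  intro k
  induction k with
  | zero =>
    intro j hj _ w _ _ _
    rw [h.bot (by omega)]
    exact bot_le
  | succ k ih =>
    intro j hj h2 w hw hw1 hw2
    have hnext : Γ T (j + 1) ≤ D := by
      by_cases hk : k = 0
      · rw [h.bot (by omega)]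
        exact bot_le
      · refine ih (j + 1) (by omega) (by omega) ⁅v, w⁆ (hD w hw) ?_ ?_
        · rw [add_comm]
          exact Γ_comm (mem_Γ_one v) hw1
        · exact h.comm_notMem h2 (hv.2 j h2 (by omega)) hw1 hw2
    rw [← h.sup_eq h2 hw1 hw2]
    exact sup_le hnext (zpowers_le.2 hw)

omit hp [Finite T] in
theorem level {w : T} (hw : w ∈ Γ T 2) {m : ℕ} (hm : 2 ≤ m) (hw' : w ∉ Γ T m) :
    ∃ j, 2 ≤ j ∧ j < m ∧ w ∈ Γ T j ∧ w ∉ Γ T (j + 1) := by
  induction m, hm using Nat.le_induction with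
  | base => exact absurd hw hw'
  | succ m hm ih =>
    by_cases h1 : w ∈ Γ T m
    · exact ⟨m, hm, by omega, h1, hw'⟩
    · obtain ⟨j, a, b, c⟩ := ih h1
      exact ⟨j, a, by omega, c⟩

theorem normal_ge (h : MCl p T n) (h4 : 4 ≤ n) (Y : Subgroup T) [hY : Y.Normal]
    (hne : ¬ Y ≤ center T) : Γ T (n - 2) ≤ Y := by
  obtain ⟨t, ht⟩ := h.exists_good h4
  have hD : ∀ w ∈ Y, ⁅t, w⁆ ∈ Y := fun w hw => by
    rw [commutatorElement_def]
    exact mul_mem (hY.conj_mem w hw t) (inv_mem hw)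
  obtain ⟨y, hy, hy'⟩ := SetLike.not_le_iff_exists.1 hne
  rw [h.center_eq] at hy'
  by_cases h2 : y ∈ Γ T 2
  · obtain ⟨j, a, b, c, d⟩ := level h2 (show 2 ≤ n - 1 by omega) hy'
    exact (Γ_antitone (show j ≤ n - 2 by omega)).trans (chain h ht hD (n - j) j (by omega) a y hy c d)
  · have : ∃ w ∈ Y, w ∈ Γ T 2 ∧ w ∉ Γ T 3 := by
      by_cases hk : y ∈ KK T 2
      · exact ⟨⁅t, y⁆, hD y hy, Γ_comm (mem_Γ_one t) (mem_Γ_one y),
          h.comm_notMem_three le_rfl h4 ht.1 hk h2⟩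
      · obtain ⟨x, hx, hx'⟩ := h.exists_KK le_rfl h4
        refine ⟨⁅y, x⁆, ?_, Γ_comm (mem_Γ_one y) (mem_Γ_one x),
          h.comm_notMem_three le_rfl h4 hk hx hx'⟩
        rw [commutatorElement_def, mul_assoc, mul_assoc, ← mul_assoc x]
        exact mul_mem hy (hY.conj_mem _ (inv_mem hy) x)
    obtain ⟨w, a, b, c⟩ := this
    exact (Γ_antitone (show 2 ≤ n - 2 by omega)).trans
      (chain h ht hD (n - 2) 2 (by omega) le_rfl w a b c)

theorem KK_last_comm (h : MCl p T n) (h4 : 4 ≤ n) {g y : T} (hg : g ∈ KK T (n - 2))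
    (hy : y ∈ Γ T (n - 2)) : y * g = g * y := by
  have := mem_KK.1 hg y hy
  rw [h.bot (by omega), mem_bot] at this
  exact (commutatorElement_eq_one_iff_mul_comm.1 this).symm

theorem big_of (h : MCl p T n) (h4 : 4 ≤ n) {X : Subgroup T} {w : T} (hX : Γ T (n - 2) ≤ X)
    (hw : w ∈ X) (hw' : w ∉ Γ T (n - 2)) : p ^ 3 ≤ Nat.card X := by
  have h1 : Γ T (n - 2) < X := lt_of_le_of_ne hX fun e => hw' (e ▸ hw)
  have := PGrp.mul_card_le_of_lt (h.pg.to_subgroup X) h1
  rw [h.card_Γ (by omega) (by omega), show n - (n - 2) = 2 by omega] at this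
  rw [pow_succ']
  exact this

theorem good_of_uni (h : MCl p T n) (h4 : 4 ≤ n) {v : T}
    (hv : Nat.card (centralizer ({v} : Set T)) ≤ p ^ 2) : Good v n := by
  have hlt : p ^ 2 < p ^ 3 := Nat.pow_lt_pow_right hp.out.one_lt (by omega)
  refine good_of_two h (fun hk => ?_) (fun hk => ?_)
  · obtain ⟨x, hx, hx'⟩ := h.exists_KK le_rfl h4
    have e := h.KK_eq le_rfl h4 hx hx'
    have s1 : ∀ g ∈ KK T 2, Γ T 2 ≤ cm (zpowers g) (Γ T 4) := fun g hg y hy w hw =>
      PGrp.commutator_symm_mem (mem_KK.1 ((zpowers_le.2 hg) hw) y hy)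
    have s2 : ⁅x, v⁆ ∈ Γ T 4 := by
      have : KK T 2 ≤ cm (zpowers x) (Γ T 4) := by
        rw [← e]
        refine sup_le (s1 x hx) (zpowers_le.2 ?_)
        rintro w ⟨k, rfl⟩
        rw [commutatorElement_eq_one_iff_commute.2 ((Commute.refl x).zpow_right k)]
        exact one_mem _
      exact PGrp.commutator_symm_mem (this hk x (mem_zpowers x))
    have s3 : KK T 2 ≤ cm (zpowers v) (Γ T 4) := by
      rw [← e]
      refine sup_le (s1 v hk) (zpowers_le.2 ?_)
      rintro w ⟨k, rfl⟩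
      have : v ^ k ∈ cm (zpowers x) (Γ T 4) := by
        refine zpow_mem ?_ k
        rintro w ⟨j, rfl⟩
        refine PGrp.commutator_symm_mem ?_
        exact PGrp.commutator_zpow_left_mem (by simp [normalizer_eq_top]) s2 j
      exact PGrp.commutator_symm_mem (this x (mem_zpowers x))
    have h5 := PGrp.relIndex_centralizer_singleton_le (H := KK T 2) (W := Γ T 4) (x := v)
      fun g hg => s3 hg v (mem_zpowers v)
    rw [h.card_Γ (by omega) h4] at h5
    have h6 := PGrp.card_eq_card_mul_relIndex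
      (inf_le_right : centralizer ({v} : Set T) ⊓ KK T 2 ≤ KK T 2)
    rw [inf_relIndex_right, h.card_KK le_rfl h4] at h6
    have h7 : Nat.card ↥(centralizer ({v} : Set T) ⊓ KK T 2) ≤ p ^ 2 :=
      (card_le_of_le inf_le_left).trans hv
    have h8 : p ^ (n - 1) ≤ p ^ 2 * p ^ (n - 4) := h6 ▸ Nat.mul_le_mul h7 h5
    rw [← pow_add, Nat.pow_le_pow_iff_right hp.out.one_lt] at h8
    omega
  · by_cases hw : v ∈ Γ T (n - 2)
    · have : KK T (n - 2) ≤ centralizer ({v} : Set T) := fun g hg =>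
        mem_centralizer_singleton_iff.2 (KK_last_comm h h4 hg hw).symm
      have h2 := (card_le_of_le this).trans hv
      rw [h.card_KK (by omega) (by omega), Nat.pow_le_pow_iff_right hp.out.one_lt] at h2
      omega
    · have := big_of h h4 (X := centralizer ({v} : Set T)) (w := v)
        (fun y hy => mem_centralizer_singleton_iff.2 (KK_last_comm h h4 hk hy))
        (mem_centralizer_singleton_iff.2 rfl) hw
      omega

theorem uni_three (h : MCl p T 3) {v : T} (hv : v ∉ center T) :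
    Nat.card (centralizer ({v} : Set T)) ≤ p ^ 2 := by
  refine h.card_le_of_ne_top fun e => hv (mem_center_iff.2 fun g => ?_)
  exact mem_centralizer_singleton_iff.1 (e ▸ mem_top g)

theorem lemL (h : MCl p T n) (Y : Subgroup T) [Y.Normal] (hY : ¬ Y ≤ center T) {D : Subgroup T}
    (hD : D ≠ ⊤) {v w : T} (hv : v ∈ D) (hvu : Nat.card (centralizer ({v} : Set T)) ≤ p ^ 2)
    (hw : w ∈ D) (hwu : ¬ Nat.card (centralizer ({w} : Set T)) ≤ p ^ 2) (hwY : w ∉ Y) :
    p ^ 3 ≤ Nat.card ↥(D ⊓ centralizer ({w} : Set T)) := by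
  rcases h.three.eq_or_lt with rfl | h4
  · exfalso
    have hc : w ∈ center T := by
      by_contra hc
      exact hwu (uni_three h hc)
    rw [h.center_eq] at hc
    exact hwY (h.last_le Y (fun e => hY (e ▸ bot_le)) hc)
  have hg := good_of_uni h h4 hvu
  have hYg := normal_ge h h4 Y hY
  have hw2 : w ∈ Γ T 2 := by
    by_contra h2
    have : ∃ i, 2 ≤ i ∧ i + 2 ≤ n ∧ w ∈ KK T i := by
      by_contra hc
      push Not at hc
      exact hwu (h.card_centralizer_le h4 ⟨hc 2 le_rfl h4, hc⟩)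
    obtain ⟨i, a, b, c⟩ := this
    apply hD
    apply frattini_nongenerating
    rw [h.frattini_eq, eq_top_iff, ← h.KK_sup a b (hg.2 i a b), ← h.KK_eq a b c h2]
    exact sup_le (sup_le le_sup_right ((zpowers_le.2 hw).trans le_sup_left))
      ((zpowers_le.2 hv).trans le_sup_left)
  have hw3 : w ∉ Γ T (n - 2) := fun e => hwY (hYg e)
  obtain ⟨j, a, b, c, d⟩ := level hw2 (show 2 ≤ n - 2 by omega) hw3
  have hD2 : Γ T (n - 2) ≤ D := (Γ_antitone b.le).trans (chain h hg (fun x hx => by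
    rw [commutatorElement_def]
    exact mul_mem (mul_mem (mul_mem hv hx) (inv_mem hv)) (inv_mem hx)) (n - j) j (by omega) a w hw c d)
  exact big_of h h4 (w := w) (le_inf hD2 fun y hy => mem_centralizer_singleton_iff.2
    (KK_last_comm h h4 (Γ_two_le_KK _ hw2) hy)) ⟨hw, mem_centralizer_singleton_iff.2 rfl⟩ hw3

omit hp [Finite T] in
theorem gen_compl {A H : Subgroup T} (hA : A ≠ ⊤) (h : ∀ x, x ∉ A → x ∈ H) : H = ⊤ := by
  obtain ⟨t, ht⟩ : ∃ t, t ∉ A := by
    by_contra hc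
    push Not at hc
    exact hA (eq_top_iff.2 fun a _ => hc a)
  rw [eq_top_iff]
  intro x _
  by_cases hx : x ∈ A
  · have := mul_mem (inv_mem (h t ht)) (h (t * x) fun e => ht ((mul_mem_cancel_right hx).1 e))
    simpa using this
  · exact h x hx

theorem lemG (h : MCl p T n) {H : Subgroup T} (hH : H ≠ ⊤) :
    ∃ u, u ∉ H ∧ Nat.card (centralizer ({u} : Set T)) ≤ p ^ 2 := by
  by_contra hc
  push Not at hc
  have key : ∀ u, Nat.card (centralizer ({u} : Set T)) ≤ p ^ 2 → u ∈ H := fun u hu => by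
    by_contra e
    exact absurd hu (not_le.2 (hc u e))
  apply hH
  rcases h.three.eq_or_lt with rfl | h4
  · refine gen_compl (A := center T) (fun e => h.not_comm ⟨⟨fun a b => ?_⟩⟩)
      fun x hx => key x (uni_three h hx)
    exact mem_center_iff.1 (e ▸ mem_top b) a
  have k2 : ∀ u, u ∉ KK T 2 → u ∉ KK T (n - 2) → u ∈ H := fun u a b =>
    key u (h.card_centralizer_le h4 (good_of_two h a b))
  by_cases e : KK T (n - 2) = KK T 2
  · exact gen_compl (h.KK_ne_top le_rfl h4) fun x hx => k2 x hx (e ▸ hx)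
  obtain ⟨-, -, hp3⟩ := h.blackburn (i := n - 2) (by omega) (by omega) e
  obtain ⟨b, hb, hb'⟩ := h.exists_KK (i := n - 2) (by omega) (by omega)
  have hb2 : b ∉ KK T 2 := fun e' =>
    e (h.KK_eq_of_mem (by omega) (by omega) le_rfl h4 hb e' hb')
  have k3 : ∀ a ∈ KK T 2, a ∉ KK T (n - 2) → a ∈ H := by
    intro a ha ha'
    have c1 : a * b ∈ H := k2 _ (fun e' => hb2 ((mul_mem_cancel_left ha).1 e'))
      (fun e' => ha' ((mul_mem_cancel_right hb).1 e'))
    have c2 : a ^ (2 : ℤ) * b ∈ H := by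
      refine k2 _ (fun e' => hb2 ((mul_mem_cancel_left (zpow_mem ha 2)).1 e')) fun e' => ?_
      have h5 := (mul_mem_cancel_right hb).1 e'
      have h6 := PGrp.dvd_of_zpow_mem hp.out
        (Γ_two_le_KK (n - 2) (h.pow_mem le_rfl (mem_Γ_one a))) ha' h5
      have := Int.le_of_dvd (by norm_num) h6
      omega
    have := mul_mem c2 (inv_mem c1)
    have e2 : a ^ (2 : ℤ) * b * (a * b)⁻¹ = a := by
      rw [zpow_two]
      group
    rwa [e2] at this
  exact gen_compl (h.KK_ne_top (i := n - 2) (by omega) (by omega)) fun x hx => by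
    by_cases h2 : x ∈ KK T 2
    · exact k3 x h2 hx
    · exact k2 x h2 hx

end Cfsg.Agent.Gp.MX
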