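import Mathlib
import Cfsg.Agent.Gp.MX1
import Cfsg.Agent.Core.Cores

/-!
# Fusion of uniform elements in groups with Sylow subgroups of maximal class
-/

set_option autoImplicit false

namespace Cfsg.Agent.Gp.MX

open Subgroup Cfsg.Agent.H23.Kr Cfsg.Agent.Inv.Rg Cfsg.Agent.Inv.Es
open scoped commutatorElement Pointwise

universe u

variable {G : Type u} [Group G] {p n : ℕ} [hp : Fact p.Prime] [Finite G]

/-- `v` has a small centralizer in `S`. -/
def uni (p : ℕ) (S : Subgroup G) (v : G) : Prop :=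
  Nat.card ↥(S ⊓ centralizer ({v} : Set G)) ≤ p ^ 2

omit hp [Finite G] in
theorem card_sub {S D : Subgroup G} (hD : D ≤ S) (v : S) :
    Nat.card ↥(D.subgroupOf S ⊓ centralizer ({v} : Set S)) =
      Nat.card ↥(D ⊓ centralizer ({(v : G)} : Set G)) := by
  rw [← card_map_of_injective S.subtype_injective]
  congr 2
  ext x
  constructor
  · rintro ⟨y, ⟨h1, h2⟩, rfl⟩
    exact ⟨h1, mem_centralizer_singleton_iff.2
      (congrArg Subtype.val (mem_centralizer_singleton_iff.1 h2))⟩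
  · rintro ⟨h1, h2⟩
    exact ⟨⟨x, hD h1⟩, ⟨h1, mem_centralizer_singleton_iff.2
      (Subtype.ext (mem_centralizer_singleton_iff.1 h2))⟩, rfl⟩

omit hp [Finite G] in
theorem uni_iff {S : Subgroup G} (v : S) :
    uni p S v ↔ Nat.card (centralizer ({v} : Set S)) ≤ p ^ 2 := by
  rw [uni, ← card_sub le_rfl v, subgroupOf_self, top_inf_eq]

omit hp [Finite G] in
theorem card_conj (D : Subgroup G) (k v : G) :
    Nat.card ↥(MulAut.conj k • D ⊓ centralizer ({v} : Set G)) =
      Nat.card ↥(D ⊓ centralizer ({k⁻¹ * v * k} : Set G)) := by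
  rw [← card_map_of_injective (K := D ⊓ centralizer ({k⁻¹ * v * k} : Set G))
    (f := (MulAut.conj k).toMonoidHom) (MulAut.conj k).injective]
  congr 2
  ext x
  constructor
  · rintro ⟨h1, h2⟩
    refine ⟨k⁻¹ * x * k, ⟨?_, mem_centralizer_singleton_iff.2 ?_⟩, by simp [mul_assoc]⟩
    · simpa using mem_pointwise_smul_iff_inv_smul_mem.1 h1
    · have := mem_centralizer_singleton_iff.1 h2
      calc k⁻¹ * x * k * (k⁻¹ * v * k) = k⁻¹ * (x * v) * k := by group
        _ = k⁻¹ * (v * x) * k := by rw [this]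
        _ = _ := by group
  · rintro ⟨y, ⟨h1, h2⟩, rfl⟩
    refine ⟨smul_mem_pointwise_smul _ _ _ h1, mem_centralizer_singleton_iff.2 ?_⟩
    have := mem_centralizer_singleton_iff.1 h2
    change k * y * k⁻¹ * v = v * (k * y * k⁻¹)
    calc k * y * k⁻¹ * v = k * (y * (k⁻¹ * v * k)) * k⁻¹ := by group
      _ = k * ((k⁻¹ * v * k) * y) * k⁻¹ := by rw [this]
      _ = _ := by group

theorem lemL' {S : Subgroup G} (h : MCl p S n) (N : Subgroup G) [N.Normal]
    (hN : ¬ N ⊓ S ≤ centralizer (S : Set G)) {D : Subgroup G} (hDS : D ≤ S) (hD : D ≠ S)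
    {v w : G} (hv : v ∈ D) (hvu : uni p S v) (hw : w ∈ D) (hwu : ¬ uni p S w) (hwN : w ∉ N) :
    p ^ 3 ≤ Nat.card ↥(D ⊓ centralizer ({w} : Set G)) := by
  rw [← card_sub hDS ⟨w, hDS hw⟩]
  refine lemL h (N.subgroupOf S) (fun e => hN ?_) (fun e => hD ?_) (v := ⟨v, hDS hv⟩) hv
    ((uni_iff (⟨v, hDS hv⟩ : S)).1 hvu) hw (fun e => hwu ((uni_iff (⟨w, hDS hw⟩ : S)).2 e)) hwN
  · rintro x ⟨h1, h2⟩ y hy
    exact congrArg Subtype.val (mem_center_iff.1 (e (show (⟨x, h2⟩ : S) ∈ _ from h1)) ⟨y, hy⟩)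
  · exact le_antisymm hDS (subgroupOf_eq_top.1 e)

theorem exists_syl {M A B : Subgroup G} (hA : IsPGroup p A) (hB : IsPGroup p B) (hAM : A ≤ M)
    (hBM : B ≤ M) : ∃ (T : Sylow p G) (k : G), k ∈ M ∧ A ≤ T ∧ B ≤ (k • T : Sylow p G) := by
  obtain ⟨R1, h1⟩ := (hA.comap_of_injective M.subtype M.subtype_injective).exists_le_sylow
  obtain ⟨R2, h2⟩ := (hB.comap_of_injective M.subtype M.subtype_injective).exists_le_sylow
  obtain ⟨k, hk⟩ := MulAction.exists_smul_eq M R1 R2
  obtain ⟨T, hT⟩ := (R1.2.map M.subtype).exists_le_sylow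
  refine ⟨T, k, k.2, fun a ha => hT ⟨⟨a, hAM ha⟩, h1 ha, rfl⟩, fun b hb => ?_⟩
  have h3 : (⟨b, hBM hb⟩ : M) ∈ ((k • R1 : Sylow p M) : Subgroup M) := hk ▸ h2 hb
  rw [Sylow.coe_subgroup_smul, mem_pointwise_smul_iff_inv_smul_mem] at h3 ⊢
  have h4 := hT ⟨_, h3, rfl⟩
  simpa using h4

theorem lt_norm {S D : Subgroup G} (hS : IsPGroup p S) (h : D < S) :
    D < S ⊓ normalizer (D : Set G) := by
  have := hS.isNilpotent
  have h1 : D.subgroupOf S < ⊤ := lt_top_iff_ne_top.2 fun e => h.not_ge (subgroupOf_eq_top.1 e)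
  have h2 := normalizerCondition_of_isNilpotent (G := S) _ h1
  obtain ⟨x, hx, hx'⟩ := SetLike.exists_of_lt h2
  refine lt_of_le_of_ne (le_inf h.le le_normalizer) fun e => hx' ?_
  rw [← subgroupOf_normalizer_eq h.le] at hx
  have : (x : G) ∈ S ⊓ normalizer (D : Set G) := ⟨x.2, hx⟩
  exact e.ge this

theorem fus (hS : ∀ S : Sylow p G, MCl p (S : Subgroup G) n) (N : Subgroup G) [hNn : N.Normal]
    (hN : ∀ S : Sylow p G, ¬ N ⊓ S ≤ centralizer ((S : Subgroup G) : Set G)) :
    ∀ (d : ℕ) (S1 S2 : Sylow p G) (v : G),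
      Nat.card G - Nat.card ↥((S1 : Subgroup G) ⊓ S2) = d → v ∉ N → v ∈ (S1 : Subgroup G) →
      v ∈ (S2 : Subgroup G) → uni p S1 v → uni p S2 v := by
  intro d
  induction d using Nat.strong_induction_on with
  | _ d ih =>
  intro S1 S2 v hd hvN h1 h2 hu
  by_cases e : S1 = S2
  · exact e ▸ hu
  set D : Subgroup G := (S1 : Subgroup G) ⊓ S2 with hDdef
  have hD1 : D < S1 := lt_of_le_of_ne inf_le_left fun e' =>
    e (Sylow.ext (S1.3 S2.2 (inf_eq_left.1 e')).symm)
  have hD2 : D < S2 := lt_of_le_of_ne inf_le_right fun e' =>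
    e (Sylow.ext (S2.3 S1.2 (inf_eq_right.1 e')))
  have a1 := lt_norm S1.2 hD1
  have a2 := lt_norm S2.2 hD2
  obtain ⟨T, k, hk, b1, b2⟩ := exists_syl (M := normalizer (D : Set G))
    (S1.2.to_inf_left (K := normalizer (D : Set G)))
    (S2.2.to_inf_left (K := normalizer (D : Set G))) inf_le_right inf_le_right
  have hvD : v ∈ D := ⟨h1, h2⟩
  have dec : ∀ X Y : Subgroup G, D < X → X ≤ Y → Nat.card G - Nat.card Y < d := by
    intro X Y c1 c2
    have c3 := PGrp.card_lt_of_lt (c1.trans_le c2)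
    have c4 : Nat.card Y ≤ Nat.card G := card_le_card_group Y
    omega
  have u1 : uni p T v := ih _ (dec _ _ a1 (le_inf inf_le_left b1)) S1 T v rfl hvN h1
    (b1 (a1.le hvD)) hu
  refine ih _ (dec _ _ a2 (le_inf b2 inf_le_left)) (k • T) S2 v rfl hvN (b2 (a2.le hvD)) h2 ?_
  by_contra u2
  have hDT : D < T := a1.trans_le b1
  have hw : k⁻¹ * v * k ∈ D := by
    have := (mem_normalizer_iff.1 (inv_mem hk) v).1 hvD
    simpa using this
  have u3 : ¬ uni p T (k⁻¹ * v * k) := by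
    rw [uni, ← card_conj, ← Sylow.coe_subgroup_smul]
    exact u2
  have hwN : k⁻¹ * v * k ∉ N := fun e' => hvN (by simpa [mul_assoc] using hNn.conj_mem _ e' k)
  have c1 := lemL' (hS T) N (hN T) hDT.le hDT.ne hvD u1 hw u3 hwN
  have c2 : MulAut.conj k • D = D := by
    ext x
    rw [mem_pointwise_smul_iff_inv_smul_mem]
    have := mem_normalizer_iff.1 (inv_mem hk) x
    simpa using this.symm
  rw [← card_conj, c2] at c1
  have c3 : Nat.card ↥(D ⊓ centralizer ({v} : Set G)) ≤ p ^ 2 :=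
    (card_le_of_le (inf_le_inf_right _ hDT.le)).trans u1
  have hlt : p ^ 2 < p ^ 3 := Nat.pow_lt_pow_right hp.out.one_lt (by omega)
  omega

theorem stepA (hS : ∀ S : Sylow p G, MCl p (S : Subgroup G) n)
    (h1 : ∀ S : Sylow p G, ∀ x ∈ (S : Subgroup G),
      (Nat.card (centralizer ({x} : Set G))).factorization p ≠ 2)
    (hres : ∀ N : Subgroup G, N.Normal → (N.index).Coprime p → N = ⊤)
    (N : Subgroup G) [hNn : N.Normal] (hne : N ≠ ⊤) :
    ∃ S : Sylow p G, N ⊓ S ≤ centralizer ((S : Subgroup G) : Set G) := by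
  by_contra hc
  push Not at hc
  obtain ⟨P⟩ : Nonempty (Sylow p G) := inferInstance
  have hP := hS P
  have a1 : N.subgroupOf (P : Subgroup G) ≠ ⊤ := fun e => hne (hres N hNn
    (((Nat.Prime.coprime_iff_not_dvd hp.out).2 fun e' =>
      P.not_dvd_index (e'.trans (index_dvd_of_le (subgroupOf_eq_top.1 e)))).symm))
  obtain ⟨u, hu, hu'⟩ := lemG hP a1
  have hun : uni p (P : Subgroup G) (u : G) := (uni_iff u).2 hu'
  -- the centralizer of `u` in `P` has order at least `p ^ 2`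
  have a2 : p ^ 2 ≤ Nat.card ↥((P : Subgroup G) ⊓ centralizer ({(u : G)} : Set G)) := by
    rw [← card_sub le_rfl u, subgroupOf_self, top_inf_eq]
    have hz : u ∉ center (P : Subgroup G) := fun e => by
      have e1 : centralizer ({u} : Set (P : Subgroup G)) = ⊤ := eq_top_iff.2 fun g _ =>
        mem_centralizer_singleton_iff.2 (mem_center_iff.1 e g)
      rw [e1, card_top, hP.card, Nat.pow_le_pow_iff_right hp.out.one_lt] at hu'
      have := hP.three
      omega
    have b1 : center (P : Subgroup G) < centralizer ({u} : Set (P : Subgroup G)) :=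
      lt_of_le_of_ne (center_le_centralizer _) fun e =>
        hz (e ▸ mem_centralizer_singleton_iff.2 rfl)
    have := PGrp.mul_card_le_of_lt (hP.pg.to_subgroup _) b1
    rwa [hP.center_eq, hP.card_last, ← pow_two] at this
  set C := centralizer ({(u : G)} : Set G) with hC
  have a3 : IsPGroup p (((P : Subgroup G) ⊓ C).comap C.subtype) :=
    (P.2.to_inf_left (K := C)).comap_of_injective C.subtype C.subtype_injective
  obtain ⟨R, hR⟩ := a3.exists_le_sylow
  obtain ⟨T, hT⟩ := (R.2.map C.subtype).exists_le_sylow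
  have a4 : (P : Subgroup G) ⊓ C ≤ (R : Subgroup C).map C.subtype := fun x hx =>
    ⟨⟨x, hx.2⟩, hR hx, rfl⟩
  have a5 : Nat.card ↥((R : Subgroup C).map C.subtype) = p ^ (Nat.card C).factorization p := by
    rw [card_map_of_injective C.subtype_injective, R.card_eq_multiplicity]
  have a6 := a2.trans (card_le_of_le a4)
  rw [a5, Nat.pow_le_pow_iff_right hp.out.one_lt] at a6
  have a7 := h1 P u u.2
  have huC : (u : G) ∈ (P : Subgroup G) ⊓ C := ⟨u.2, mem_centralizer_singleton_iff.2 rfl⟩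
  have a8 := fus hS N hc _ P T u rfl hu u.2 (hT (a4 huC)) hun
  have a9 := (card_le_of_le (le_inf hT (map_subtype_le _))).trans a8
  rw [a5, Nat.pow_le_pow_iff_right hp.out.one_lt] at a9
  exact a7 (le_antisymm a9 a6)

end Cfsg.Agent.Gp.MX
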