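import Mathlib
import Cfsg.Agent.Gp.MX2
import Cfsg.Agent.Core.SylowOf
import Cfsg.Prelude.Def_CaseTheorems

/-!
# Groups with Sylow subgroups of maximal class and no small `p`-centralizers
-/

set_option autoImplicit false

namespace Cfsg.Agent.Gp.MX

open Subgroup Cfsg.Agent.H23.Kr Cfsg.Agent.Inv.Rg Cfsg.Agent.Inv.Es
open scoped commutatorElement Pointwise

universe u

variable {G : Type u} [Group G] {p n : ℕ} [hp : Fact p.Prime] [Finite G]

theorem cen_le {S : Subgroup G} (h : MCl p S n) {Z : Subgroup G} (h1 : Z ≤ S)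
    (h2 : Z ≤ centralizer (S : Set G)) : Z ≤ ⁅S, S⁆ ∧ Nat.card Z ≤ p := by
  have a1 : Z ≤ (Γ S (n - 1)).map S.subtype := fun z hz =>
    ⟨⟨z, h1 hz⟩, h.center_eq.le (mem_center_iff.2 fun g => Subtype.ext (h2 hz g g.2)), rfl⟩
  refine ⟨a1.trans ?_, ?_⟩
  · have h3 := h.three
    refine (map_mono (Γ_antitone (show 2 ≤ n - 1 by omega))).trans ?_
    change (⁅(⊤ : Subgroup S), (⊤ : Subgroup S)⁆).map S.subtype ≤ _
    rw [map_commutator, ← MonoidHom.range_eq_map, range_subtype]
  · have := card_le_of_le a1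
    rwa [card_map_of_injective S.subtype_injective, h.card_last] at this

theorem norm_cen (S : Sylow p G) (h : MCl p (S : Subgroup G) n) (N : Subgroup G) [hNn : N.Normal]
    (hZ : N ⊓ S ≤ centralizer ((S : Subgroup G) : Set G)) {t : G} (ht : t ∈ N)
    (ht' : t ∈ normalizer ((N ⊓ S : Subgroup G) : Set G)) :
    t ∈ centralizer ((N ⊓ S : Subgroup G) : Set G) := by
  set Z : Subgroup G := N ⊓ S with hZdef
  set X : Subgroup G := centralizer (Z : Set G) ⊓ (N ⊔ S) with hX
  have hSC : (S : Subgroup G) ≤ centralizer (Z : Set G) := fun s hs z hz => (hZ hz s hs).symm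
  have a1 : (S : Subgroup G) ≤ X := le_inf hSC le_sup_right
  have a2 : ((t • S : Sylow p G) : Subgroup G) ≤ X := by
    intro x hx
    rw [Sylow.coe_subgroup_smul, mem_pointwise_smul_iff_inv_smul_mem] at hx
    have hx' : t⁻¹ * x * t ∈ (S : Subgroup G) := by simpa using hx
    refine ⟨fun z hz => ?_, ?_⟩
    · have hz' : t⁻¹ * z * t ∈ Z := by simpa using (mem_normalizer_iff.1 (inv_mem ht') z).1 hz
      have := hSC hx' _ hz'
      calc z * x = t * (t⁻¹ * z * t * (t⁻¹ * x * t)) * t⁻¹ := by group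
        _ = t * (t⁻¹ * x * t * (t⁻¹ * z * t)) * t⁻¹ := by rw [this]
        _ = x * z := by group
    · have := mul_mem (mul_mem (mem_sup_left (T := (S : Subgroup G)) ht) (mem_sup_right hx'))
        (inv_mem (mem_sup_left (T := (S : Subgroup G)) ht))
      simpa [mul_assoc] using this
  obtain ⟨c, hc, e⟩ := (Core.isSylowOf_sylow_of_le S a1).exists_conj_eq
    (Core.isSylowOf_sylow_of_le (t • S) a2)
  have a3 : c⁻¹ * t ∈ normalizer ((S : Subgroup G) : Set G) := by
    have e' : c • S = t • S := Sylow.ext e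
    have : (c⁻¹ * t) • S = S := by rw [mul_smul, ← e', inv_smul_smul]
    exact Sylow.smul_eq_iff_mem_normalizer.1 this
  have a4 : c⁻¹ * t ∈ ((N ⊔ S : Subgroup G) : Set G) :=
    mul_mem (inv_mem hc.2) (mem_sup_left ht)
  rw [normal_mul] at a4
  obtain ⟨m, hm, y, hy, e2⟩ := a4
  have e2' : m * y = c⁻¹ * t := e2
  have a5 : m ∈ normalizer ((S : Subgroup G) : Set G) := by
    have := mul_mem a3 (inv_mem (le_normalizer hy))
    rwa [← e2', mul_inv_cancel_right] at this
  have a6 : ∀ a ∈ (S : Subgroup G), m * a * m⁻¹ * a⁻¹ ∈ Z := fun a ha => ⟨by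
    rw [mul_assoc, mul_assoc, ← mul_assoc a]
    exact mul_mem hm (hNn.conj_mem _ (inv_mem hm) a),
    (S : Subgroup G).mul_mem ((mem_normalizer_iff.1 a5 a).1 ha) ((S : Subgroup G).inv_mem ha)⟩
  have a7 : ⁅(S : Subgroup G), (S : Subgroup G)⁆ ≤ centralizer ({m} : Set G) := by
    rw [commutator_le]
    intro a ha b hb
    rw [mem_centralizer_singleton_iff]
    obtain ⟨z1, hz1, e1⟩ : ∃ z ∈ Z, m * a * m⁻¹ = z * a := ⟨_, a6 a ha, by group⟩
    obtain ⟨z2, hz2, e3⟩ : ∃ z ∈ Z, m * b * m⁻¹ = z * b := ⟨_, a6 b hb, by group⟩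
    have c1 : Commute z1 a := (hZ hz1 a ha).symm
    have c2 : Commute z1 b := (hZ hz1 b hb).symm
    have c3 : Commute z2 a := (hZ hz2 a ha).symm
    have c4 : Commute z2 b := (hZ hz2 b hb).symm
    have c5 : Commute z1 z2 := (hZ hz1 z2 hz2.2).symm
    have : m * ⁅a, b⁆ * m⁻¹ = ⁅a, b⁆ := by
      rw [conjugate_commutatorElement, e1, e3, commutatorElement_def, commutatorElement_def]
      have d1 : z1 * a * (z2 * b) * (z1 * a)⁻¹ = a * (z2 * b) * a⁻¹ := by
        have : Commute z1 (a * (z2 * b) * a⁻¹) := (c1.mul_right (c5.mul_right c2)).mul_right c1.inv_right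
        calc z1 * a * (z2 * b) * (z1 * a)⁻¹ = z1 * (a * (z2 * b) * a⁻¹) * z1⁻¹ := by group
          _ = _ := by rw [this.eq, mul_inv_cancel_right]
      rw [d1]
      have d2 : Commute z2 (a * b * a⁻¹ * b⁻¹) :=
        ((c3.mul_right c4).mul_right c3.inv_right).mul_right c4.inv_right
      calc a * (z2 * b) * a⁻¹ * (z2 * b)⁻¹ = (a * z2) * b * a⁻¹ * b⁻¹ * z2⁻¹ := by group
        _ = z2 * (a * b * a⁻¹ * b⁻¹) * z2⁻¹ := by rw [← c3.eq]; group
        _ = _ := by rw [d2.eq, mul_inv_cancel_right]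
    calc ⁅a, b⁆ * m = m * ⁅a, b⁆ * m⁻¹ * m := by rw [this]
      _ = _ := by group
  have a8 : m ∈ centralizer (Z : Set G) := fun z hz =>
    mem_centralizer_singleton_iff.1 (a7 ((cen_le h inf_le_right hZ).1 hz))
  have : t = c * (m * y) := by rw [e2']; group
  rw [this]
  exact mul_mem hc.1 (mul_mem a8 (hSC hy))

theorem stepB (S : Sylow p G) (h : MCl p (S : Subgroup G) n) (hcore : Cfsg.pPrimeCore p G = ⊥)
    (hres : ∀ N : Subgroup G, N.Normal → (N.index).Coprime p → N = ⊤)
    (N : Subgroup G) [hNn : N.Normal]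
    (hZ : N ⊓ S ≤ centralizer ((S : Subgroup G) : Set G)) :
    N ≤ center G ∧ Nat.card N ≤ p := by
  have hs : Core.IsSylowOf p (N ⊓ S) N := by
    have := Core.isSylowOf_sylow_inf_normal S N
    first | exact this | exact inf_comm (S : Subgroup G) N ▸ this
  have hB : normalizer ((hs.toSylow : Subgroup N) : Set N) ≤
      centralizer ((hs.toSylow : Subgroup N) : Set N) := by
    intro t ht z hz
    rw [hs.coe_toSylow, ← subgroupOf_normalizer_eq hs.le] at ht
    exact Subtype.ext (norm_cen S h N hZ t.2 ht z hz)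
  have hc := MonoidHom.ker_transferSylow_isComplement' hs.toSylow hB
  set K := (MonoidHom.transferSylow hs.toSylow hB).ker with hK
  have k1 : (K.map N.subtype).IsSubnormal := IsSubnormal.step _ N (map_subtype_le _)
    hNn.isSubnormal (by
      rw [subgroupOf, comap_map_eq_self_of_injective N.subtype_injective]
      infer_instance)
  have k2 : (Nat.card (K.map N.subtype)).Coprime p := by
    rw [card_map_of_injective N.subtype_injective, ← hc.index_eq_card]
    exact ((Nat.Prime.coprime_iff_not_dvd hp.out).2 hs.toSylow.not_dvd_index).symm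
  have k3 := Core.le_pPrimeCore_of_isSubnormal k1 k2
  rw [hcore, le_bot_iff, map_eq_bot_iff_of_injective _ N.subtype_injective] at k3
  have k4 : (hs.toSylow : Subgroup N) = ⊤ := by
    have := hc.sup_eq_top
    rwa [k3, bot_sup_eq] at this
  rw [hs.coe_toSylow, subgroupOf_eq_top] at k4
  have k5 : N ⊓ S = N := le_antisymm inf_le_left k4
  have k6 : (S : Subgroup G) ≤ centralizer (N : Set G) := fun s hs' z hz =>
    (hZ (k4 hz) s hs').symm
  have k7 := hres (centralizer (N : Set G)) inferInstance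
    (((Nat.Prime.coprime_iff_not_dvd hp.out).2 fun e' =>
      S.not_dvd_index (e'.trans (index_dvd_of_le k6))).symm)
  refine ⟨fun z hz => mem_center_iff.2 fun g => ?_, k5 ▸ (cen_le h inf_le_right hZ).2⟩
  exact ((k7 ▸ mem_top g : g ∈ centralizer (N : Set G)) z hz).symm

theorem main (hS : ∀ S : Sylow p G, MCl p (S : Subgroup G) n)
    (h1 : ∀ S : Sylow p G, ∀ x ∈ (S : Subgroup G),
      (Nat.card (centralizer ({x} : Set G))).factorization p ≠ 2)
    (hcore : Cfsg.pPrimeCore p G = ⊥)
    (hres : ∀ N : Subgroup G, N.Normal → (N.index).Coprime p → N = ⊤) :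
    Cfsg.IsQuasisimple G ∧ Nat.card (center G) ≤ p := by
  have key : ∀ N : Subgroup G, N.Normal → N ≠ ⊤ → N ≤ center G ∧ Nat.card N ≤ p := by
    intro N hN hne
    obtain ⟨S, hZ⟩ := stepA hS h1 hres N hne
    exact stepB S (hS S) hcore hres N hZ
  obtain ⟨P⟩ : Nonempty (Sylow p G) := inferInstance
  have nc : ¬ ∀ a b : G, a * b = b * a := fun e => (hS P).not_comm
    ⟨⟨fun a b => Subtype.ext (e a b)⟩⟩
  have zt : center G ≠ ⊤ := fun e => nc fun a b => mem_center_iff.1 (e ▸ mem_top b) a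
  refine ⟨⟨⟨?_⟩, ?_⟩, (key _ inferInstance zt).2⟩
  · by_contra e
    have c1 := (key _ inferInstance e).1
    obtain ⟨x, hx⟩ : ∃ x, x ∉ center G := by
      by_contra hc
      push Not at hc
      exact zt (eq_top_iff.2 fun a _ => hc a)
    have c2 : (centralizer ({x} : Set G)).Normal :=
      Normal.of_commutator_le _ (c1.trans (center_le_centralizer _))
    have c3 : centralizer ({x} : Set G) ≠ ⊤ := fun e' => hx (mem_center_iff.2 fun g =>
      mem_centralizer_singleton_iff.1 (e' ▸ mem_top g))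
    exact hx ((key _ c2 c3).1 (mem_centralizer_singleton_iff.2 rfl))
  · haveI : Nontrivial (G ⧸ center G) := QuotientGroup.nontrivial_iff.2 zt
    refine ⟨fun H hH => ?_⟩
    by_cases e : H.comap (QuotientGroup.mk' (center G)) = ⊤
    · right
      rw [← map_comap_eq_self_of_surjective (QuotientGroup.mk'_surjective (center G)) H, e,
        map_top_of_surjective _ (QuotientGroup.mk'_surjective (center G))]
    · left
      rw [← map_comap_eq_self_of_surjective (QuotientGroup.mk'_surjective (center G)) H,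
        Subgroup.map_eq_bot_iff, QuotientGroup.ker_mk']
      exact (key _ (hH.comap _) e).1

end Cfsg.Agent.Gp.MX
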