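import Mathlib
import Cfsg.Agent.PGrp.Aut
import Cfsg.Agent.PGrp.Alperin
import Cfsg.Agent.Core.SylowOf
import Cfsg.Agent.S0640

/-! Odd order groups acting on an elementary abelian `2`-group, with an element of order three
whose commutator space has order four. -/

set_option autoImplicit false

namespace Cfsg.Agent.Gp.Q4

open Subgroup Pointwise

variable {V : Type*} [CommGroup V]

/-- The commutator map. -/
def cmap (a : MulAut V) : V →* V :=
  MonoidHom.mk' (fun v => v⁻¹ * a v) fun x y => by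
    rw [map_mul, mul_inv, mul_mul_mul_comm]

/-- The commutator space. -/
def W (a : MulAut V) : Subgroup V := (cmap a).range

theorem mem_W {a : MulAut V} {w : V} : w ∈ W a ↔ ∃ v, v⁻¹ * a v = w := Iff.rfl

theorem cm_mem (a : MulAut V) (v : V) : v⁻¹ * a v ∈ W a := ⟨v, rfl⟩

/-- The automorphisms acting trivially modulo `X`. -/
def L (X : Subgroup V) : Subgroup (MulAut V) where
  carrier := {a | ∀ v, v⁻¹ * a v ∈ X}
  one_mem' v := by simp
  mul_mem' {a b} ha hb v := by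
    have := mul_mem (hb v) (ha (b v))
    rwa [mul_assoc, mul_inv_cancel_left] at this
  inv_mem' {a} ha v := by
    have := inv_mem (ha (a⁻¹ v))
    rwa [mul_inv_rev, inv_inv, ← MulAut.mul_apply, mul_inv_cancel, MulAut.one_apply] at this

theorem mem_L {X : Subgroup V} {a : MulAut V} : a ∈ L X ↔ W a ≤ X :=
  ⟨fun h _ ⟨v, e⟩ => e ▸ h v, fun h v => h (cm_mem a v)⟩

/-- The stabilizer of `X`. -/
def St (X : Subgroup V) : Subgroup (MulAut V) where
  carrier := {a | ∀ v, a v ∈ X ↔ v ∈ X}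
  one_mem' _ := Iff.rfl
  mul_mem' {a b} ha hb v := (ha (b v)).trans (hb v)
  inv_mem' {a} ha v := by
    rw [← ha, ← MulAut.mul_apply, mul_inv_cancel, MulAut.one_apply]

theorem L_le_St (X : Subgroup V) : L X ≤ St X := fun a ha v =>
  ⟨fun h => by simpa using mul_mem h (inv_mem (ha v)), fun h => by simpa using mul_mem h (ha v)⟩

theorem mem_W_conj (g a : MulAut V) (v : V) : g v ∈ W (g * a * g⁻¹) ↔ v ∈ W a := by
  constructor
  · rintro ⟨w, hw⟩
    exact ⟨g⁻¹ w, g.injective (by rw [← hw]; simp [cmap])⟩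
  · rintro ⟨w, rfl⟩
    exact ⟨g w, by simp [cmap]⟩

theorem card_W_conj (g a : MulAut V) : Nat.card (W (g * a * g⁻¹)) = Nat.card (W a) :=
  (Nat.card_congr (g.toEquiv.subtypeEquiv fun v => (mem_W_conj g a v).symm)).symm

theorem mem_St {g a : MulAut V} (h : W (g * a * g⁻¹) = W a) : g ∈ St (W a) := fun v => by
  rw [← mem_W_conj g a v, h]

theorem mem_St_of_commute {g a : MulAut V} (h : Commute g a) : g ∈ St (W a) :=
  mem_St (by rw [h.eq, mul_inv_cancel_right])

theorem W_le_of_mem {a b : MulAut V} (h : b ∈ zpowers a) : W b ≤ W a :=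
  mem_L.1 (zpowers_le.2 (mem_L.2 le_rfl) h)

/-- Restriction to an invariant subgroup. -/
def res (X : Subgroup V) : St X →* MulAut X where
  toFun a := { a.1.toEquiv.subtypeEquiv fun v => (a.2 v).symm with
    map_mul' := fun x y => Subtype.ext (map_mul a.1 x.1 y.1) }
  map_one' := rfl
  map_mul' _ _ := rfl

variable [Finite V] (h2 : ∀ v : V, v ^ 2 = 1)
include h2

omit [Finite V] in
theorem eq_one_of_fix {a : MulAut V} {n : ℕ} (hn : Odd n) (ha : a ^ n = 1) {w : V} (hw : w ∈ W a)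
    (h : a w = w) : w = 1 := by
  obtain ⟨v, rfl⟩ := mem_W.1 hw
  have k : ∀ i : ℕ, (a ^ i) v = v * (v⁻¹ * a v) ^ i := fun i => by
    induction i with
    | zero => simp
    | succ i ih => rw [pow_succ', MulAut.mul_apply, ih, map_mul, map_pow, h, pow_succ', ← mul_assoc,
        mul_inv_cancel_left]
  have := k n
  obtain ⟨m, rfl⟩ := hn
  rwa [ha, MulAut.one_apply, left_eq_mul, pow_succ, pow_mul, h2, one_pow, one_mul] at this

theorem card_modEq {a : MulAut V} {s : ℕ} [Fact s.Prime] (hs : Odd s) (ha : a ^ s = 1)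
    {X : Subgroup V} (hX : X ≤ W a) (hi : a ∈ St X) : Nat.card X % s = 1 % s := by
  classical
  have := Fintype.ofFinite X
  let f : Function.End X := fun x => res X ⟨a, hi⟩ x
  have h := Equiv.Perm.card_fixedPoints_modEq (f := f) (p := s) (n := 1) (by
    have e : res X ⟨a, hi⟩ ^ s = 1 := by rw [← map_pow, ← map_one (res X)]; congr; exact Subtype.ext ha
    funext x
    rw [pow_one]
    have k : ∀ i : ℕ, (f ^ i) x = (res X ⟨a, hi⟩ ^ i) x := fun i => by
      induction i with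
      | zero => rfl
      | succ i ih => rw [pow_succ', pow_succ', MulAut.mul_apply, ← ih]; rfl
    rw [k, e]; rfl)
  rw [Fintype.card_eq_one_iff.2 ⟨(⟨1, Subtype.ext (map_one a)⟩ : f.fixedPoints), fun y =>
    Subtype.ext (Subtype.ext (eq_one_of_fix h2 hs ha (hX y.1.2) (congrArg Subtype.val y.2)))⟩] at h
  rw [Nat.card_eq_fintype_card]
  exact h

theorem card_pow (X : Subgroup V) : ∃ n, Nat.card X = 2 ^ n :=
  haveI : Fact (Nat.Prime 2) := ⟨Nat.prime_two⟩
  IsPGroup.iff_card.1 fun x => ⟨1, Subtype.ext (h2 x)⟩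

theorem card_aut {X : Subgroup V} {n : ℕ} (hX : Nat.card X = 2 ^ n) :
    Nat.card (MulAut X) ∣ ∏ i : Fin n, (2 ^ n - 2 ^ (i : ℕ)) := by
  haveI : Fact (Nat.Prime 2) := ⟨Nat.prime_two⟩
  obtain ⟨φ, hφ⟩ := PGrp.exists_autMatrix (V := X) (p := 2) inferInstance
    (fun v => Subtype.ext (h2 v)) hX
  have := PGrp.card_dvd_card_GL φ hφ
  rwa [Matrix.card_GL_field, ZMod.card] at this

theorem card_dvd {X : Subgroup V} {K : Subgroup (MulAut V)} (hK : K ≤ L X) (ho : Odd (Nat.card K)) :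
    Nat.card K ∣ Nat.card (MulAut X) := by
  refine card_dvd_of_injective ((res X).comp (inclusion (hK.trans (L_le_St X))))
    ((injective_iff_map_eq_one _).2 fun a ha => Subtype.ext (MulEquiv.ext fun v => ?_))
  have := eq_one_of_fix h2 ho (congrArg Subtype.val (pow_card_eq_one' (x := a))) (cm_mem a.1 v)
    (congrArg Subtype.val (DFunLike.congr_fun ha (⟨_, hK a.2 v⟩ : X)) :)
  exact (inv_mul_eq_one.1 this).symm

omit h2 in
theorem card_sup_le (X Y : Subgroup V) : Nat.card (X ⊔ Y : Subgroup V) ≤ Nat.card X * Nat.card Y :=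
  Nat.le_of_dvd (Nat.mul_pos Nat.card_pos Nat.card_pos)
    (Core.card_sup_dvd (N := X) (H := Y) le_normalizer_of_normal)

theorem card_two {a b : MulAut V} {n : ℕ} (ha : Nat.card (W a) = 2 ^ n)
    (hb : Nat.card (W b) = 2 ^ n) (ho : Odd (Nat.card (closure {a, b}))) :
    ∃ m ≤ 2 * n, Nat.card (W a ⊔ W b : Subgroup V) = 2 ^ m ∧ closure {a, b} ≤ L (W a ⊔ W b) ∧
      Nat.card (closure {a, b}) ∣ ∏ i : Fin m, (2 ^ m - 2 ^ (i : ℕ)) := by
  obtain ⟨m, hm⟩ := card_pow h2 (W a ⊔ W b)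
  have h1 := card_sup_le (W a) (W b)
  rw [hm, ha, hb, ← pow_add, Nat.pow_le_pow_iff_right (by norm_num)] at h1
  have h3 : closure {a, b} ≤ L (W a ⊔ W b) := (closure_le _).2 (by
    rintro _ (rfl | rfl)
    exacts [mem_L.2 le_sup_left, mem_L.2 le_sup_right])
  exact ⟨m, by omega, hm, h3, (card_dvd h2 h3 ho).trans (card_aut h2 hm)⟩

omit [Finite V] h2 in
theorem comm_of_dvd {G : Type*} [Group G] [Finite G] {s : ℕ} [hs : Fact s.Prime] {K : Subgroup G}
    (h : Nat.card K ∣ s ^ 2) {a b : G} (ha : a ∈ K) (hb : b ∈ K) : Commute a b := by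
  obtain ⟨i, hi, e⟩ := (Nat.dvd_prime_pow hs.out).1 h
  haveI : IsMulCommutative K := by
    interval_cases i
    · haveI := (Nat.card_eq_one_iff_unique.1 e).1
      exact ⟨⟨fun x y => Subsingleton.elim _ _⟩⟩
    · exact PGrp.isMulCommutative_of_isCyclic (isCyclic_of_prime_card (e.trans (pow_one s)))
    · exact IsPGroup.isMulCommutative_of_card_eq_prime_sq e
  exact congrArg Subtype.val (mul_comm' (⟨a, ha⟩ : K) ⟨b, hb⟩)

omit [Finite V] h2 in
theorem dvd_sq {s k N : ℕ} (h : s ^ k ∣ N) (h3 : ¬ s ^ 3 ∣ N) : s ^ k ∣ s ^ 2 :=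
  pow_dvd_pow s (by
    by_contra e
    exact h3 ((pow_dvd_pow s (by omega)).trans h))

theorem key {s n : ℕ} (hs : s = 3 ∧ n = 2 ∨ s = 7 ∧ n = 3) {P : Subgroup (MulAut V)}
    (hP : IsPGroup s P) {a u : MulAut V} (ha : a ∈ P) (hu : u ∈ P) (a1 : a ^ s = 1)
    (u1 : u ^ s = 1) (hW : Nat.card (W a) = 2 ^ n) (hc : Commute u (a * u⁻¹ * a⁻¹)) :
    u ∈ St (W a) := by
  haveI hp : Fact s.Prime := ⟨by rcases hs with ⟨rfl, -⟩ | ⟨rfl, -⟩ <;> norm_num⟩
  have so : Odd s := by rcases hs with ⟨rfl, -⟩ | ⟨rfl, -⟩ <;> decide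
  have k : ∀ g ∈ P, g ∉ St (W a) → ∀ w ∈ W a, (g * a * g⁻¹) w = w := fun g hg hn w hw => by
    have hb : g * a * g⁻¹ ∈ P := mul_mem (mul_mem hg ha) (inv_mem hg)
    have h3 : closure {a, g * a * g⁻¹} ≤ P := (closure_le _).2 (by rintro _ (rfl | rfl) <;> assumption)
    obtain ⟨i, hi⟩ := IsPGroup.iff_card.1 (hP.to_le h3)
    obtain ⟨m, h4, -, -, h5⟩ := card_two h2 hW ((card_W_conj g a).trans hW) (hi ▸ so.pow)
    have c : Commute a (g * a * g⁻¹) := comm_of_dvd (s := s) (K := closure {a, g * a * g⁻¹}) (by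
      rw [hi] at h5 ⊢
      refine dvd_sq h5 ?_
      rcases hs with ⟨rfl, rfl⟩ | ⟨rfl, rfl⟩ <;> interval_cases m <;> decide)
      (subset_closure (by simp)) (subset_closure (by simp))
    have h6 := card_modEq h2 so a1 (X := W a ⊓ W (g * a * g⁻¹)) inf_le_left fun v =>
      and_congr (mem_St_of_commute (Commute.refl a) v) (mem_St_of_commute c v)
    obtain ⟨j, hj⟩ := card_pow h2 (W a ⊓ W (g * a * g⁻¹))
    have h7 : j ≤ n := by
      rw [← Nat.pow_le_pow_iff_right (show 1 < 2 by norm_num), ← hj, ← hW]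
      exact card_le_of_le inf_le_left
    have h8 : j ≠ n := by
      rintro rfl
      have e1 := eq_of_le_of_card_ge (inf_le_left : W a ⊓ W (g * a * g⁻¹) ≤ _) (by rw [hW, hj])
      exact hn (mem_St (eq_of_le_of_card_ge (e1 ▸ inf_le_right) (card_W_conj g a).le).symm)
    have h9 : W a ⊓ W (g * a * g⁻¹) = ⊥ := by
      rw [← card_eq_one, hj]
      rw [hj] at h6
      rcases hs with ⟨rfl, rfl⟩ | ⟨rfl, rfl⟩ <;> interval_cases j <;> simp_all
    have : w⁻¹ * (g * a * g⁻¹) w ∈ W a ⊓ W (g * a * g⁻¹) :=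
      mem_inf.2 ⟨mul_mem (inv_mem hw) ((mem_St_of_commute c.symm w).2 hw), cm_mem _ w⟩
    rw [h9, mem_bot, inv_mul_eq_one] at this
    exact this.symm
  by_contra hn
  have hn2 : u * u ∉ St (W a) := fun e => hn (by
    obtain ⟨m, hm⟩ := so
    have := pow_mem e (m + 1)
    rwa [← sq, ← pow_mul, show 2 * (m + 1) = s + 1 by omega, pow_succ, u1, one_mul] at this)
  have e : a = (u * a * u⁻¹) * ((u * u) * a * (u * u)⁻¹)⁻¹ * (u * a * u⁻¹) := by
    have e2 : (u * u) * a * (u * u)⁻¹ = (u * (a * u⁻¹ * a⁻¹)) * (u * (a * u⁻¹ * a⁻¹)) * a :=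
      calc _ = u * (u * (a * u⁻¹ * a⁻¹)) * (a * u⁻¹ * a⁻¹) * a := by group
        _ = _ := by rw [hc.eq, ← mul_assoc u, mul_assoc _ u, hc.eq]
    rw [e2]; group
  have : W a = ⊥ := (eq_bot_iff_forall _).2 fun w hw => eq_one_of_fix h2 so a1 hw (by
    have h1 := k u hu hn w hw
    have h3 := k (u * u) (mul_mem hu hu) hn2 w hw
    rw [e, MulAut.mul_apply, h1, MulAut.mul_apply, MulAut.inv_apply, (MulEquiv.symm_apply_eq _).2 h3.symm, h1])
  rw [this, card_bot] at hW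
  rcases hs with ⟨-, rfl⟩ | ⟨-, rfl⟩ <;> omega

variable {Γ : Type*} [Group Γ] [Finite Γ] (φ : Γ →* MulAut V)

omit h2 [Finite V] in
theorem cube {s : ℕ} [Fact s.Prime] (s2 : s ≠ 2) {P : Subgroup Γ} (hP : IsPGroup s P)
    (h : ¬ PRankLE s 2 P) : ∃ U ≤ P, IsElementaryAbelian s U ∧ Nat.card U = s ^ 3 ∧
      ∀ g ∈ P, ∀ u ∈ U, g * u * g⁻¹ ∈ U := by
  obtain ⟨A, h1, h2, h3⟩ := PGrp.exists_normal_elementary_cube s2 hP h
  haveI := h2.1
  refine ⟨A.map P.subtype, map_subtype_le _, ⟨inferInstance, ?_⟩,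
    by rw [card_map_of_injective P.subtype_injective, h3], ?_⟩
  · rintro _ ⟨a, ha, rfl⟩
    exact congrArg Subtype.val (h2.2 a ha)
  · rintro g hg _ ⟨a, ha, rfl⟩
    exact ⟨_, h1.conj_mem a ha ⟨g, hg⟩, rfl⟩

theorem use {s n : ℕ} (hs : s = 3 ∧ n = 2 ∨ s = 7 ∧ n = 3) {E : Subgroup Γ}
    (hE : IsElementaryAbelian s E) (hE3 : Nat.card E = s ^ 3) {a : MulAut V} (ha : a ∈ φ.range)
    (a1 : a ^ s = 1) (hW : Nat.card (W a) = 2 ^ n) : ∃ F : Subgroup Γ, IsElementaryAbelian s F ∧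
      Nat.card F = s ^ 3 ∧ ∀ f ∈ F, φ f ∈ St (W a) := by
  haveI hp : Fact s.Prime := ⟨by rcases hs with ⟨rfl, -⟩ | ⟨rfl, -⟩ <;> norm_num⟩
  have s2 : s ≠ 2 := by rcases hs with ⟨rfl, -⟩ | ⟨rfl, -⟩ <;> decide
  obtain ⟨T, hT⟩ := Core.exists_isSylowOf s ((zpowers a).comap φ)
  have h1 := hT.map φ
  rw [map_comap_eq_self (zpowers_le.2 ha)] at h1
  have h3 := h1.eq_of_le (IsPGroup.of_card_dvd_pow (n := 1) (by
    rw [Nat.card_zpowers, pow_one, orderOf_dvd_iff_pow_eq_one, a1])) le_rfl h1.le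
  obtain ⟨P, hP, hTP⟩ := Core.exists_isSylowOf_ge hT.isPGroup le_top
  obtain ⟨g, -, hg⟩ := hP.exists_conj_le (IsPGroup.of_card hE3) le_top
  obtain ⟨U, u1, u2, u3, u4⟩ := cube s2 hP.isPGroup fun h => by
    haveI := hE.1
    have := h ((MulAut.conj g • E).subgroupOf P)
      ⟨⟨fun x y => Subtype.ext (Subtype.ext ((MulAut.conj g⁻¹).injective (by
        simpa [mul_assoc, -map_mul] using congrArg Subtype.val
          (mul_comm' (⟨_, Core.mem_conj_smul_iff.1 x.2⟩ : E) ⟨_, Core.mem_conj_smul_iff.1 y.2⟩))))⟩⟩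
      fun x hx => Subtype.ext ((MulAut.conj g⁻¹).injective (by
        rw [coe_pow, map_pow]
        simpa using hE.2 _ (Core.mem_conj_smul_iff.1 hx)))
    rw [Nat.card_congr (subgroupOfEquivOfLe hg).toEquiv, Core.card_conj_smul, hE3,
      Nat.pow_le_pow_iff_right hp.out.one_lt] at this
    omega
  obtain ⟨t, ht, rfl⟩ : a ∈ T.map φ := h3 ▸ mem_zpowers a
  refine ⟨U, u2, u3, fun f hf => key h2 hs (hP.isPGroup.map φ) ⟨t, hTP ht, rfl⟩ ⟨f, u1 hf, rfl⟩ a1
    (by rw [← map_pow, u2.2 f hf, map_one]) hW ?_⟩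
  haveI := u2.1
  have : Commute f (t * f⁻¹ * t⁻¹) :=
    congrArg Subtype.val (mul_comm' (⟨f, hf⟩ : U) ⟨_, u4 t (hTP ht) _ (inv_mem hf)⟩)
  simpa using this.map φ

/-- Two conjugates which do not commute. -/
theorem seven {p : ℕ} [hp : Fact p.Prime] (p2 : p ≠ 2) (p3 : p ≠ 3) {a b : MulAut V}
    (hL : ∀ q : ℕ, q.Prime → q ∣ Nat.card (closure {a, b}) → q = 3 ∨ q = p) (a3 : a ^ 3 = 1)
    (ha : Nat.card (W a) = 2 ^ 2) (hb : Nat.card (W b) = 2 ^ 2) (hn : ¬ Commute a b) :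
    p = 7 ∧ ∃ d ∈ closure {a, b}, d ^ 7 = 1 ∧ Nat.card (W d) = 2 ^ 3 ∧ W a ≤ W d := by
  haveI : Fact (Nat.Prime 3) := ⟨Nat.prime_three⟩
  have ho : Odd (Nat.card (closure {a, b})) := by
    rw [← Nat.not_even_iff_odd, even_iff_two_dvd]
    exact fun e => by rcases hL 2 Nat.prime_two e with e | e <;> omega
  obtain ⟨m, h4, hX, hK, h5⟩ := card_two h2 ha hb ho
  have h6 : Nat.card (closure {a, b}) ∣ 20160 := h5.trans (by interval_cases m <;> decide)
  have ma : a ∈ closure {a, b} := subset_closure (by simp)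
  have mb : b ∈ closure {a, b} := subset_closure (by simp)
  generalize closure {a, b} = K at *
  generalize W a ⊔ W b = X at *
  have h7 : p ∣ Nat.card K := by
    by_contra e
    have := Nat.eq_prime_pow_of_unique_prime_dvd (p := 3) (Nat.card_pos (α := K)).ne' fun q1 q2 =>
      (hL _ q1 q2).resolve_right fun k => e (k ▸ q2)
    exact hn (comm_of_dvd (s := 3) (by rw [this] at h6 ⊢; exact dvd_sq h6 (by decide)) ma mb)
  have h8 : p = 5 ∨ p = 7 := by
    have h := h7.trans h6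
    rw [show 20160 = 2 ^ 6 * (3 ^ 2 * (5 * 7)) by norm_num, hp.out.dvd_mul, hp.out.dvd_mul,
      hp.out.dvd_mul, Nat.prime_dvd_prime_iff_eq (q := 5) hp.out (by norm_num),
      Nat.prime_dvd_prime_iff_eq (q := 7) hp.out (by norm_num)] at h
    rcases h with h | h | h
    · exact absurd ((Nat.prime_dvd_prime_iff_eq hp.out Nat.prime_two).1 (hp.out.dvd_of_dvd_pow h)) p2
    · exact absurd ((Nat.prime_dvd_prime_iff_eq hp.out Nat.prime_three).1 (hp.out.dvd_of_dvd_pow h)) p3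
    · exact h
  have h9 : Nat.card K ∣ p * 9 := by
    have c : ∀ {q : ℕ}, q.Prime → q ≠ 3 → q ≠ p → (Nat.card K).Coprime q := fun q1 q2 q3 =>
      ((Nat.Prime.coprime_iff_not_dvd q1).2 fun e => (hL _ q1 e).elim q2 q3).symm
    have c2 := (c Nat.prime_two (by norm_num) p2.symm).pow_right 6
    rcases h8 with rfl | rfl
    · exact (c2.mul_right (c (q := 7) (by norm_num) (by norm_num) (by norm_num))).dvd_of_dvd_mul_left h6
    · exact (c2.mul_right (c (q := 5) (by norm_num) (by norm_num) (by norm_num))).dvd_of_dvd_mul_left h6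
  obtain ⟨d, hd⟩ := exists_prime_orderOf_dvd_card' p h7
  have i9 : (zpowers d).index ∣ 9 := by
    rw [← (zpowers d).card_mul_index, Nat.card_zpowers, hd] at h9
    exact (Nat.mul_dvd_mul_iff_left hp.out.pos).1 h9
  let D : Sylow p K := (IsPGroup.of_card (n := 1) (by rw [Nat.card_zpowers, hd, pow_one])).toSylow
    (P := zpowers d) fun e => p3 ((Nat.prime_dvd_prime_iff_eq hp.out Nat.prime_three).1
      (hp.out.dvd_of_dvd_pow (n := 2) (e.trans i9)))
  haveI : Subsingleton (Sylow p K) := by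
    have e1 := card_sylow_modEq_one p K
    have e2 : Nat.card (Sylow p K) ∣ 3 ^ 2 := D.card_dvd_index.trans i9
    obtain ⟨i, hi, e⟩ := (Nat.dvd_prime_pow Nat.prime_three).1 e2
    rw [e] at e1
    refine (Nat.card_eq_one_iff_unique.1 ?_).1
    rcases h8 with rfl | rfl <;> interval_cases i <;> first | exact e | exact absurd e1 (by decide)
  haveI hD : (zpowers d).Normal := D.normal_of_subsingleton
  have d1 : d.1 ^ p = 1 := by rw [← hd]; exact congrArg Subtype.val (pow_orderOf_eq_one d)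
  have po := hp.out.odd_of_ne_two p2
  have w1 : W d.1 ≤ X := mem_L.1 (hK d.2)
  have w2 : W a ≤ X := mem_L.1 (hK ma)
  obtain ⟨j, hj⟩ := card_pow h2 (W d.1)
  have j4 : j ≤ m := by
    rw [← Nat.pow_le_pow_iff_right (show 1 < 2 by norm_num), ← hj, ← hX]; exact card_le_of_le w1
  have j0 : j ≠ 0 := by
    rintro rfl
    have : d = 1 := Subtype.ext (MulEquiv.ext fun v => by
      have := cm_mem d.1 v
      rw [card_eq_one.1 hj, mem_bot, inv_mul_eq_one] at this
      exact this.symm)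
    rw [this, orderOf_one] at hd
    exact hp.out.one_lt.ne hd
  have j1 := card_modEq h2 po d1 le_rfl (mem_St_of_commute (Commute.refl d.1))
  rw [hj] at j1
  rcases h8 with rfl | rfl
  · exfalso
    have j5 : j = 4 := by interval_cases m <;> interval_cases j <;> simp_all
    have e : W d.1 = X := eq_of_le_of_card_ge w1 (by rw [hj, hX]; exact Nat.pow_le_pow_right two_pos (by omega))
    have c : zpowers (⟨a, ma⟩ : K) ≤ centralizer (zpowers d : Set K) := by
      have e1 := PGrp.relIndex_centralizer_dvd_card_mulAut (R := zpowers d) (A := zpowers ⟨a, ma⟩)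
        le_normalizer_of_normal
      rw [IsCyclic.card_mulAut, Nat.card_zpowers, hd] at e1
      have e2 := (relIndex_dvd_card (centralizer (zpowers d : Set K)) (zpowers ⟨a, ma⟩)).trans
        (show _ ∣ 3 by rw [Nat.card_zpowers, orderOf_dvd_iff_pow_eq_one]; exact Subtype.ext a3)
      exact relIndex_eq_one.1 (Nat.eq_one_of_dvd_coprimes (by decide) e1 e2)
    have := card_modEq h2 po d1 (e ▸ w2) (mem_St_of_commute
      (congrArg Subtype.val (c (mem_zpowers _) d (mem_zpowers d)) :))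
    rw [ha] at this
    omega
  have j3 : j = 3 := by interval_cases m <;> interval_cases j <;> simp_all
  subst j3
  refine ⟨rfl, d.1, d.2, d1, hj, ?_⟩
  have s1 : a ∈ St (W d.1) := mem_St (eq_of_le_of_card_ge (W_le_of_mem (by
    obtain ⟨k, hk⟩ := hD.conj_mem d (mem_zpowers d) ⟨a, ma⟩
    exact ⟨k, congrArg Subtype.val hk⟩)) (card_W_conj _ _).ge)
  have e1 := card_modEq h2 (by decide) a3 (X := W a ⊓ W d.1) inf_le_left fun v =>
    and_congr (mem_St_of_commute (Commute.refl a) v) (s1 v)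
  have e2 := Core.card_sup_mul_card_inf (N := W a) (H := W d.1) le_normalizer_of_normal
  have e3 := card_le_of_le (sup_le w2 w1)
  have e4 := card_le_of_le (inf_le_left : W a ⊓ W d.1 ≤ _)
  have e5 : 2 ^ m ≤ 2 ^ 4 := Nat.pow_le_pow_right two_pos h4
  rw [← inf_eq_left]
  refine eq_of_le_of_card_ge inf_le_left ?_
  rw [ha, hj] at e2
  rw [ha] at e4 ⊢
  rw [hX] at e3
  generalize Nat.card (W a ⊓ W d.1 : Subgroup V) = y at *
  interval_cases y <;> omega

theorem main {p : ℕ} (hp : p.Prime) (p2 : p ≠ 2)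
    (hΓ : ∀ q : ℕ, q.Prime → q ∣ Nat.card Γ → q = 3 ∨ q = p) {E : Subgroup Γ}
    (hE : IsElementaryAbelian p E) (hE3 : Nat.card E = p ^ 3) {x : Γ} (x3 : φ x ^ 3 = 1)
    (hW : Nat.card (W (φ x)) = 2 ^ 2) : ∃ (r : ℕ) (F : Subgroup Γ) (X : Subgroup V), r.Prime ∧
      r ≠ 2 ∧ IsElementaryAbelian r F ∧ Nat.card F = r ^ 3 ∧ W (φ x) ≤ X ∧ Nat.card X ≤ 2 ^ 3 ∧
      ∀ f ∈ F, φ f ∈ St X := by
  haveI := Fact.mk hp
  haveI : Fact (Nat.Prime 3) := ⟨Nat.prime_three⟩
  by_cases p3 : p = 3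
  · subst p3
    obtain ⟨F, h1, h3, h4⟩ := use h2 φ (.inl ⟨rfl, rfl⟩) hE hE3 ⟨x, rfl⟩ x3 hW
    exact ⟨3, F, _, hp, p2, h1, h3, le_rfl, by omega, h4⟩
  by_cases hc : ∀ g : Γ, Commute (φ x) (φ g * φ x * (φ g)⁻¹)
  swap
  · obtain ⟨g, hg⟩ := not_forall.1 hc
    have l : closure {φ x, φ g * φ x * (φ g)⁻¹} ≤ φ.range := (closure_le _).2 (by
      rintro _ (rfl | rfl)
      exacts [⟨x, rfl⟩, ⟨g * x * g⁻¹, by simp⟩])
    obtain ⟨rfl, d, d0, d1, d2, d3⟩ := seven h2 p2 p3 (fun q q1 q2 => hΓ q q1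
      (q2.trans ((card_dvd_of_le l).trans (card_range_dvd φ)))) x3 hW ((card_W_conj _ _).trans hW) hg
    obtain ⟨F, h1, h3, h4⟩ := use h2 φ (.inr ⟨rfl, rfl⟩) hE hE3 (l d0) d1 d2
    exact ⟨7, F, _, hp, p2, h1, h3, d3, d2.le, h4⟩
  set A := normalClosure {x} with hA
  have nA : A.Normal := normalClosure_normal
  have a1 : A ≤ (centralizer {φ x}).comap φ := by
    refine (closure_le _).2 fun y hy => ?_
    obtain ⟨_, rfl, e⟩ := Group.mem_conjugatesOfSet_iff.1 hy
    obtain ⟨g, rfl⟩ := isConj_iff.1 e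
    exact mem_centralizer_singleton_iff.2 (by simpa using (hc g).symm.eq)
  have a2 : ∀ y ∈ A, ∀ z ∈ A, Commute (φ y) (φ z) := fun y hy z hz => by
    refine (closure_le ((centralizer {φ y}).comap φ)).2 (fun z hz => ?_) hz (φ y) rfl
    obtain ⟨_, rfl, e⟩ := Group.mem_conjugatesOfSet_iff.1 hz
    obtain ⟨g, rfl⟩ := isConj_iff.1 e
    have := mem_centralizer_singleton_iff.1 (a1 (nA.conj_mem y hy g⁻¹))
    refine mem_centralizer_singleton_iff.2 ((MulAut.conj (φ g)⁻¹).injective ?_)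
    simpa [mul_assoc] using this.symm
  have a3 : IsPGroup 3 (A.map φ) := by
    rintro ⟨_, y, hy, rfl⟩
    refine ⟨1, Subtype.ext ?_⟩
    change φ y ^ 3 ^ 1 = 1
    induction hy using closure_induction with
    | mem z hz =>
      obtain ⟨_, rfl, e⟩ := Group.mem_conjugatesOfSet_iff.1 hz
      obtain ⟨g, rfl⟩ := isConj_iff.1 e
      rw [map_mul, map_mul, map_inv, conj_pow, pow_one, x3]; simp
    | one => simp
    | mul y z hy hz h3 h4 => rw [map_mul, (a2 y hy z hz).mul_pow, h3, h4, one_mul]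
    | inv y _ h3 => rw [map_inv, inv_pow, h3, inv_one]
  obtain ⟨T, hT⟩ := Core.exists_isSylowOf 3 A
  by_cases hr : PRankLE 3 2 T
  swap
  · obtain ⟨U, u1, u2, u3, -⟩ := cube (by norm_num) hT.isPGroup hr
    exact ⟨3, U, _, Nat.prime_three, by norm_num, u2, u3, le_rfl, by omega, fun f hf =>
      mem_St_of_commute (mem_centralizer_singleton_iff.1 (a1 (hT.le (u1 hf))))⟩
  have t1 := (hT.map φ).eq_of_le a3 le_rfl (hT.map φ).le
  set B := (centralizer (A.map φ : Set (MulAut V))).comap φ with hB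
  haveI : B.Normal := ⟨fun b hb g => by
    rintro _ ⟨y, hy, rfl⟩
    have := hb _ ⟨_, nA.conj_mem y hy g⁻¹, rfl⟩
    refine (MulAut.conj (φ g)⁻¹).injective ?_
    simpa [mul_assoc] using this⟩
  have b1 : A ≤ B := fun y hy => by
    rintro _ ⟨z, hz, rfl⟩
    exact a2 z hz y hy
  have b2 : centralizer (T : Set Γ) ≤ B := fun y hy => by
    rw [hB, ← t1]
    rintro _ ⟨z, hz, rfl⟩
    rw [← map_mul, hy z hz, map_mul]
  have b3 : B.index ∣ Nat.card (MulAut T) := by
    have e : B ⊔ normalizer (T : Set Γ) = ⊤ := top_le_iff.1 (hT.frattini_top ▸ sup_le_sup_right b1 _)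
    rw [← relIndex_top_right, ← e, relIndex_sup_left]
    exact (relIndex_dvd_of_le_left _ b2).trans (PGrp.relIndex_centralizer_dvd_card_mulAut le_rfl)
  have b4 : E ≤ B := by
    obtain ⟨i, -, e⟩ := (Nat.dvd_prime_pow hp).1 (hE3 ▸ relIndex_dvd_card B E)
    obtain rfl | i0 := Nat.eq_zero_or_pos i
    · exact relIndex_eq_one.1 e
    have := (S0640.result (p := 3) (by norm_num) hT.isPGroup hr p hp p3
      (((dvd_pow_self p i0.ne').trans (e ▸ relIndex_dvd_index_of_normal B E)).trans b3)).2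
    have := hp.two_le
    omega
  exact ⟨p, E, _, hp, p2, hE, hE3, le_rfl, by omega, fun f hf => mem_St_of_commute
    (b4 hf _ ⟨x, subset_normalClosure rfl, rfl⟩).symm⟩

end Cfsg.Agent.Gp.Q4
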