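import Mathlib
import Cfsg.Agent.Char.Indicator

/-! Numerical conditions for a rank three action with multiplicities `2 p - 1` and `p`. -/

set_option autoImplicit false

namespace Cfsg.Agent.Gp.TP

open Cfsg Cfsg.Agent.Char MulAction
open scoped _root_.Classical ComplexConjugate

theorem srg {Ω : Type*} [Fintype Ω] (R : Ω → Ω → Prop) (M : Ω → Ω → ℤ) {m0 m1 m2 N p l : ℤ}
    (hn : (Fintype.card Ω : ℤ) = 3 * p) (hp : 0 < p) (irr : ∀ x, ¬ R x x)
    (hM : ∀ x y, M x y = if x = y then m0 else if R x y then m2 else m1)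
    (sym : ∀ x y, M x y = M y x) (row : ∀ x, ∑ y, M x y = 0)
    (sq : ∀ x y, (2 * p - 1) * ∑ z, M x z * M z y = N * M x y) (tr : 3 * p * m0 = N) (hN : N ≠ 0)
    (deg : ∀ x, ∑ z, (if R x z then (1 : ℤ) else 0) = l) {x y x' y' : Ω} (hxy : R x y)
    (hne : x' ≠ y') (hxy' : ¬ R x' y') :
    ∃ r j : ℤ, l = r + j * p ∧ p * j * (3 - j) = 6 * r ^ 2 + 6 * r * j + j ^ 2 - 3 * r := by
  set a := m0 - m1 with ha
  set b := m2 - m1 with hb
  let A : Ω → Ω → ℤ := fun x y => if R x y then 1 else 0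
  let d : Ω → Ω → ℤ := fun x y => if x = y then 1 else 0
  have hM' : ∀ x y, M x y = a * d x y + b * A x y + m1 := by
    intro x y
    rw [hM]
    by_cases h1 : x = y
    · subst h1; simp [d, A, irr, ha]
    · by_cases h2 : R x y <;> simp [d, A, h1, h2, hb]
  have d1 : ∀ x (g : Ω → ℤ), ∑ z, d x z * g z = g x := fun x g => by simp [d]
  have d2 : ∀ y (g : Ω → ℤ), ∑ z, g z * d z y = g y := fun y g => by simp [d]
  have d3 : ∀ x, ∑ z, d x z = 1 := fun x => by simp [d]
  have d4 : ∀ y, ∑ z, d z y = 1 := fun y => by simp [d]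
  have E : ∀ x y, ∑ z, M x z * M z y = a ^ 2 * d x y + 2 * a * b * A x y +
      b ^ 2 * ∑ z, A x z * A z y + 2 * a * m1 + b * m1 * (l + ∑ z, A z y) + 3 * p * m1 ^ 2 := by
    intro x y
    rw [Finset.sum_congr rfl (g := fun z => a ^ 2 * (d x z * d z y) + a * b * (d x z * A z y) +
      a * b * (A x z * d z y) + b ^ 2 * (A x z * A z y) + a * m1 * d x z + a * m1 * d z y +
      b * m1 * A x z + b * m1 * A z y + m1 ^ 2) fun z _ => by rw [hM', hM']; ring]
    simp only [Finset.sum_add_distrib, ← Finset.mul_sum, d1, d2, d3, d4, Finset.sum_const,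
      Finset.card_univ, nsmul_eq_mul, hn]
    have := deg x
    simp only [A] at this ⊢
    rw [this]; ring
  have r0 : a + b * l + 3 * p * m1 = 0 := by
    have := row x
    simp only [hM', Finset.sum_add_distrib, ← Finset.mul_sum, d3, Finset.sum_const,
      Finset.card_univ, nsmul_eq_mul, hn] at this
    have h2 := deg x
    simp only [A] at this
    rw [h2] at this
    linear_combination this
  have xy : x ≠ y := fun e => irr x (e ▸ hxy)
  have q0 := sq x x
  have q1 := sq x y
  have q2 := sq x' y'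
  rw [E, hM'] at q0 q1 q2
  have e1 : d x x = 1 := by simp [d]
  have e2 : A x x = 0 := by simp [A, irr]
  have e3 : d x y = 0 := by simp [d, xy]
  have e4 : A x y = 1 := by simp [A, hxy]
  have e5 : d x' y' = 0 := by simp [d, hne]
  have e6 : A x' y' = 0 := by simp [A, hxy']
  rw [e1, e2] at q0
  rw [e3, e4] at q1
  rw [e5, e6] at q2
  have tr' : 3 * p * (a + m1) = N := by rw [← tr, ha]; ring
  by_cases b0 : b = 0
  · exfalso
    rw [b0] at q0 q2 r0
    have h1 : N = (3 * p - 1) * a := by linear_combination r0 - tr'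
    have a0 : a ≠ 0 := by rintro e; rw [e, mul_zero] at h1; exact hN h1
    have h2 : a * (a * p) = 0 := by linear_combination q2 - q0 - a * h1
    rcases mul_eq_zero.mp h2 with e | e
    · exact a0 e
    · exact mul_ne_zero a0 hp.ne' e
  have As : ∀ x y, A x y = A y x := by
    intro x y
    have := sym x y
    rw [hM', hM'] at this
    have h1 : d x y = d y x := by simp [d, eq_comm]
    rw [h1] at this
    exact mul_left_cancel₀ b0 (by linear_combination this)
  have col : ∀ y, ∑ z, A z y = l := fun y => by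
    rw [Finset.sum_congr rfl fun z _ => As z y]; exact deg y
  have dg : ∑ z, A x z * A z x = l := by
    rw [Finset.sum_congr rfl (g := fun z => A x z) fun z _ => by
      rw [As z x]; simp only [A]; split_ifs <;> simp]
    exact deg x
  rw [col] at q0 q1 q2
  rw [dg] at q0
  generalize ∑ z, A x z * A z y = lam at q1
  generalize ∑ z, A x' z * A z y' = mu at q2
  have f0 : (2 * p - 1) ≠ 0 := by omega
  have s1 : (2 * p - 1) * (2 * a + b * (lam - mu)) = N :=
    mul_left_cancel₀ b0 (by linear_combination q1 - q2)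
  have s2 : a ^ 2 + a * b * (lam - mu) - b ^ 2 * (l - mu) = 0 :=
    mul_left_cancel₀ f0 (by linear_combination q2 - q0 + a * s1)
  have s3 : b ^ 2 ∣ (2 * a + b * (lam - mu)) ^ 2 :=
    ⟨(lam - mu) ^ 2 + 4 * (l - mu), by linear_combination 4 * s2⟩
  obtain ⟨w, hw⟩ := (Int.pow_dvd_pow_iff two_ne_zero).mp s3
  have s4 : w ^ 2 = (lam - mu) ^ 2 + 4 * (l - mu) :=
    mul_left_cancel₀ (pow_ne_zero 2 b0) (by
      linear_combination 4 * s2 - (2 * a + b * (lam - mu) + b * w) * hw)
  have s5 : Even (w - (lam - mu)) := by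
    have : Even ((w - (lam - mu)) * (w - (lam - mu) + 2 * (lam - mu))) :=
      ⟨2 * (l - mu), by linear_combination s4⟩
    rcases Int.even_mul.mp this with h | ⟨u, h⟩
    · exact h
    · exact ⟨u - (lam - mu), by linear_combination h⟩
  obtain ⟨k, hk⟩ := s5
  have ak : a = b * k := by
    have : 2 * a = 2 * (b * k) := by linear_combination hw + b * hk
    omega
  -- eigenvalues `r = lam - mu + k` and `-k`
  have t1 : k ^ 2 + k * (lam - mu) - (l - mu) = 0 :=
    mul_left_cancel₀ (pow_ne_zero 2 b0) (by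
      rw [ak] at s2; linear_combination s2)
  have t2 : l + (2 * p - 1) * (lam - mu + k) - p * k = 0 :=
    mul_left_cancel₀ b0 (by
      rw [ak] at s1 r0 tr'; linear_combination s1 - tr' + r0)
  have t3 : 3 * p * mu = (l - (lam - mu + k)) * (l + k) :=
    mul_left_cancel₀ (mul_ne_zero f0 (pow_ne_zero 2 b0)) (by
      rw [ak] at s1 r0 q2
      linear_combination 3 * p * q2 - 3 * p * m1 * s1 +
        (2 * p - 1) * (-(3 * p * m1) - b * (k + l) + b * (lam - mu + 2 * k)) * r0)
  refine ⟨lam - mu + k, k - 2 * (lam - mu + k), by linear_combination t2, ?_⟩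
  apply mul_left_cancel₀ hp.ne'
  have hl : l = (lam - mu + k) + (k - 2 * (lam - mu + k)) * p := by linear_combination t2
  have hmu : mu = l - k * (lam - mu + k) := by linear_combination t1
  generalize lam - mu + k = r at hl hmu t3 ⊢
  rw [hmu, hl] at t3
  linear_combination t3

theorem srg_arith {p l r j s : ℤ} (hp : 3 < p) (hl : l = r + j * p)
    (h : p * j * (3 - j) = 6 * r ^ 2 + 6 * r * j + j ^ 2 - 3 * r) (l0 : 0 < l) (l1 : l < 3 * p - 1)
    (s1 : 2 * s ∣ l) (s2 : s ∣ p - 1) :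
    s ∣ 4 ∧ (2 * p - 1 = 3 * (r * (2 * r + 1)) ∨ 2 * p - 1 = 3 * ((-r - 1) * (2 * (-r - 1) + 1))) := by
  have hj : j = 0 ∨ j = 1 ∨ j = 2 ∨ j = 3 := by
    by_contra hc
    have h1 : 4 ≤ j * (j - 3) := by
      rcases (by omega : j ≤ -1 ∨ 4 ≤ j) with e | e <;> nlinarith
    nlinarith [sq_nonneg (4 * r + 2 * j - 1)]
  obtain ⟨u, hu⟩ := s1
  obtain ⟨v, hv⟩ := s2
  rcases hj with rfl | rfl | rfl | rfl
  · exfalso
    have : r * (2 * r - 1) = 0 := by linarith
    rcases mul_eq_zero.mp this with e | e <;> omega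
  · refine ⟨?_, Or.inl (by linarith)⟩
    have e1 : r = s * (2 * u - v) - 1 := by linarith
    have : s ∣ 2 := ⟨2 * v - 6 * s * (2 * u - v) ^ 2 + 9 * (2 * u - v), by
      rw [e1] at h; linear_combination 2 * hv - h⟩
    exact this.trans ⟨2, rfl⟩
  · refine ⟨?_, Or.inr (by linarith)⟩
    have e1 : r = 2 * s * (u - v) - 2 := by linarith
    exact ⟨v - 12 * s * (u - v) ^ 2 + 15 * (u - v), by
      rw [e1] at h
      have : 2 * (4 : ℤ) = 2 * (s * (v - 12 * s * (u - v) ^ 2 + 15 * (u - v))) := by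
        linear_combination 2 * hv - h
      omega⟩
  · exfalso
    have : (r + 1) * (2 * r + 3) = 0 := by linarith
    rcases mul_eq_zero.mp this with e | e <;> omega

variable {G : Type*} [Group G] [Fintype G] {Ω : Type*} [MulAction G Ω] [Finite Ω]

theorem rank3 [IsPretransitive G Ω] {p : ℕ} (hp : 0 < p) (hΩ : Nat.card Ω = 3 * p)
    {χ : G → ℂ} (hχ : IsIrrCharacter G χ) (h1 : χ ≠ fun _ => 1) (c : G → ℤ) (hc : ∀ g, χ g = c g)
    (hd : χ 1 = (2 * p - 1 : ℤ))
    (hi : classInner (fun g : G => (Nat.card (fixedBy Ω g) : ℂ)) χ = 1)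
    (h3 : Nat.card (orbitRel.Quotient G (Ω × Ω)) = 3) {α β : Ω} (hab : α ≠ β) :
    ∃ l : ℕ, l = {z | z ≠ α ∧ ∀ g : G, g • α = α → g • β ≠ z}.ncard ∧ 0 < l ∧ l < 3 * p - 1 ∧
      ∃ r j : ℤ, l = r + j * p ∧ p * j * (3 - j) = 6 * r ^ 2 + 6 * r * j + j ^ 2 - 3 * r := by
  haveI := Fintype.ofFinite Ω
  let R : Ω → Ω → Prop := fun x y => x ≠ y ∧ ∀ g : G, g • α = x → g • β ≠ y
  have Rs : ∀ (g : G) x y, R x y → R (g • x) (g • y) := by
    rintro g x y ⟨a1, a2⟩
    refine ⟨fun e => a1 (smul_left_cancel g e), fun k k1 k2 => a2 (g⁻¹ * k) ?_ ?_⟩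
    · rw [mul_smul, k1, inv_smul_smul]
    · rw [mul_smul, k2, inv_smul_smul]
  have Rs' : ∀ (g : G) x y, R (g • x) (g • y) ↔ R x y := fun g x y =>
    ⟨fun h => by simpa using Rs g⁻¹ _ _ h, Rs g x y⟩
  let mk : Ω × Ω → orbitRel.Quotient G (Ω × Ω) := Quotient.mk''
  have mk_eq : ∀ u v : Ω × Ω, mk u = mk v ↔ ∃ g : G, g • v.1 = u.1 ∧ g • v.2 = u.2 := by
    intro u v
    rw [Quotient.eq'', orbitRel_apply]
    exact ⟨fun ⟨g, hg⟩ => ⟨g, congrArg Prod.fst hg, congrArg Prod.snd hg⟩,
      fun ⟨g, g1, g2⟩ => ⟨g, Prod.ext g1 g2⟩⟩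
  have n01 : mk (α, α) ≠ mk (α, β) := fun e => by
    obtain ⟨g, g1, g2⟩ := (mk_eq _ _).mp e
    exact hab (smul_left_cancel g (g1.trans g2.symm))
  have nR : ∀ x y, R x y ↔ mk (x, y) ≠ mk (α, α) ∧ mk (x, y) ≠ mk (α, β) := by
    intro x y
    simp only [R, ne_eq, mk_eq, not_exists, not_and]
    refine and_congr_left fun _ => ⟨fun h g g1 g2 => h (g1.symm.trans g2), fun h e => ?_⟩
    obtain ⟨g, hg⟩ := exists_smul_eq G α x
    exact h g hg (e ▸ hg)
  haveI := Fintype.ofFinite (orbitRel.Quotient G (Ω × Ω))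
  obtain ⟨q, hq⟩ : ∃ q, (Finset.univ.erase (mk (α, α))).erase (mk (α, β)) = {q} := by
    apply Finset.card_eq_one.mp
    rw [Finset.card_erase_of_mem (by simpa using n01.symm), Finset.card_erase_of_mem (by simp),
      Finset.card_univ, ← Nat.card_eq_fintype_card, h3]
  have Rq : ∀ x y, R x y ↔ mk (x, y) = q := by
    intro x y
    rw [nR, ← Finset.mem_singleton, ← hq]
    simp [and_comm]
  obtain ⟨⟨x0, y0⟩, h0⟩ : ∃ u, mk u = q := Quotient.exists_rep q
  have R0 : R x0 y0 := (Rq _ _).mpr h0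
  let M : Ω → Ω → ℤ := fun x y => ∑ g : G, if g • y = x then c g else 0
  have cc : ∀ g k : G, c (k * g * k⁻¹) = c g := fun g k => by
    have := isChar_classFun (isIrr_isChar hχ) g k
    rw [hc, hc] at this
    exact_mod_cast this
  have ci : ∀ g : G, c g⁻¹ = c g := fun g => by
    have := isIrr_inv hχ g
    rw [hc, hc, map_intCast] at this
    exact_mod_cast this
  have Ms : ∀ (k : G) x y, M (k • x) (k • y) = M x y := by
    intro k x y
    refine (Fintype.sum_equiv (MulAut.conj k).toEquiv _ _ fun g => ?_).symm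
    simp only [MulEquiv.toEquiv_eq_coe, MulEquiv.coe_toEquiv, MulAut.conj_apply, cc, mul_smul,
      inv_smul_smul, smul_left_cancel_iff]
  have hG : (Nat.card G : ℂ) ≠ 0 := card_ne_zero
  have dg : ∀ x, ∑ z, (if R x z then (1 : ℤ) else 0) = ∑ z, (if R α z then (1 : ℤ) else 0) := by
    intro x
    obtain ⟨g, rfl⟩ := exists_smul_eq G α x
    refine (Fintype.sum_equiv (MulAction.toPerm g) _ _ fun z => ?_).symm
    simp only [toPerm_apply, Rs']
  have hset : {z | z ≠ α ∧ ∀ g : G, g • α = α → g • β ≠ z} = ↑(Finset.univ.filter (R α)) := by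
    ext z; simp [R, eq_comm]
  have hl : ∑ z, (if R α z then (1 : ℤ) else 0) = (Finset.univ.filter (R α)).card := by
    rw [Finset.sum_boole]
  have hn : Fintype.card Ω = 3 * p := by rw [← Nat.card_eq_fintype_card, hΩ]
  refine ⟨(Finset.univ.filter (R α)).card, by rw [hset, Set.ncard_coe_finset], ?_, ?_, ?_⟩
  · obtain ⟨g, hg⟩ := exists_smul_eq G x0 α
    exact Finset.card_pos.mpr ⟨g • y0, by simpa [← hg] using Rs g _ _ R0⟩
  · have : (Finset.univ.filter (R α)) ⊆ (Finset.univ.erase α).erase β := by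
      intro z hz
      have hz' := (Finset.mem_filter.mp hz).2
      simp only [Finset.mem_erase, Finset.mem_univ, and_true]
      exact ⟨fun e => hz'.2 1 (one_smul _ _) (by rw [one_smul, e]), hz'.1.symm⟩
    have h4 := Finset.card_le_card this
    rw [Finset.card_erase_of_mem (by simpa using hab.symm), Finset.card_erase_of_mem (by simp),
      Finset.card_univ, hn] at h4
    omega
  refine srg R M (m0 := M α α) (m1 := M α β) (m2 := M x0 y0) (N := Nat.card G)
    (by rw [hn]; simp) (by exact_mod_cast hp) (fun x h => h.1 rfl) ?_ ?_ ?_ ?_ ?_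
    (by exact_mod_cast Nat.card_pos.ne') (fun x => by convert (dg x).trans hl) R0 hab
    (fun h => h.2 1 (one_smul _ _) (one_smul _ _))
  · intro x y
    split_ifs with e1 e2
    · subst e1
      obtain ⟨g, rfl⟩ := exists_smul_eq G α x
      exact Ms g _ _
    · obtain ⟨g, g1, g2⟩ := (mk_eq _ _).mp (((Rq _ _).mp e2).trans h0.symm)
      dsimp only at g1 g2
      rw [← g1, ← g2, Ms]
    · simp only [R, ne_eq, e1, not_false_eq_true, true_and, not_forall, not_not] at e2
      obtain ⟨g, g1, g2⟩ := e2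
      rw [← g1, ← g2, Ms]
  · intro x y
    refine Fintype.sum_equiv (Equiv.inv G) _ _ fun g => ?_
    simp only [Equiv.inv_apply, ci]
    exact if_congr (by rw [inv_smul_eq_iff, eq_comm]) rfl rfl
  · intro x
    simp only [M]
    rw [Finset.sum_comm]
    have h2 := isIrr_sum_eq_zero hχ h1
    simp only [hc] at h2
    simp only [← eq_inv_smul_iff, Finset.sum_ite_eq', Finset.mem_univ, if_true]
    exact_mod_cast h2
  · intro x y
    have conv : ∀ w : G, (2 * p - 1) * ∑ g : G, c g * c (g⁻¹ * w) = Nat.card G * c w := by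
      intro w
      have := isIrr_sum_conj_mul_mul hχ hχ w
      rw [if_pos rfl, hd, ← Fintype.sum_equiv (Equiv.inv G)
        (fun g => ((c g * c (g⁻¹ * w) : ℤ) : ℂ)) _ (fun g => by simp [hc, ci])] at this
      have f0 : ((2 * p - 1 : ℤ) : ℂ) ≠ 0 := by exact_mod_cast (by omega : (2 * p - 1 : ℤ) ≠ 0)
      rw [hc, div_mul_eq_mul_div, eq_div_iff f0] at this
      rw [mul_comm]
      exact_mod_cast this
    have e1 : ∑ z, M x z * M z y = ∑ w : G, if w • y = x then ∑ g : G, c g * c (g⁻¹ * w) else 0 := by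
      simp only [M, Finset.sum_mul_sum]
      rw [Finset.sum_comm]
      have : ∀ g : G, ∑ z, ∑ k : G, (if g • z = x then c g else 0) * (if k • y = z then c k else 0)
          = ∑ w : G, if w • y = x then c g * c (g⁻¹ * w) else 0 := by
        intro g
        rw [Finset.sum_comm]
        refine Fintype.sum_equiv (Equiv.mulLeft g) _ _ fun k => ?_
        simp [mul_smul]
      rw [Finset.sum_congr rfl fun g _ => this g, Finset.sum_comm]
      refine Finset.sum_congr rfl fun w _ => ?_
      split_ifs <;> simp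
    rw [e1, Finset.mul_sum]
    simp only [M, Finset.mul_sum]
    refine Finset.sum_congr rfl fun w _ => ?_
    split_ifs
    · exact conv w
    · simp
  · have e1 : ∑ x, M x x = 3 * p * M α α := by
      rw [Finset.sum_congr rfl (g := fun _ => M α α) fun x _ => by
        obtain ⟨g, rfl⟩ := exists_smul_eq G α x
        exact Ms g _ _, Finset.sum_const, Finset.card_univ, hn]
      simp
    rw [← e1]
    have h2 := card_mul_classInner (fun g : G => (Nat.card (fixedBy Ω g) : ℂ)) χ
    rw [hi, mul_one] at h2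
    simp only [hc, map_intCast] at h2
    simp only [M]
    rw [Finset.sum_comm]
    have e2 : ∀ g : G, ∑ x : Ω, (if g • x = x then c g else 0) = Nat.card (fixedBy Ω g) * c g := by
      intro g
      rw [← Finset.sum_filter, Finset.sum_const, Nat.card_eq_fintype_card, Fintype.card_subtype]
      simp
    rw [Finset.sum_congr rfl fun g _ => e2 g]
    exact_mod_cast h2.symm

end Cfsg.Agent.Gp.TP
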