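import Mathlib

/-! Arithmetic for transitive groups of degree `3 p`. -/

set_option autoImplicit false

namespace Cfsg.Agent.Gp.TP

theorem two_pow_le {x y w : ℕ} (h : 2 ^ x ∣ 2 ^ y * w) (hw : Odd w) : x ≤ y :=
  (Nat.pow_dvd_pow_iff_le_right one_lt_two).mp
    (((Nat.coprime_two_left.mpr hw).pow_left x).dvd_of_dvd_mul_right h)

theorem arB {k c g : ℕ} {v : ℤ} (hk : 2 ≤ k) (hg : Odd g) (hv : v = -1 ∨ v = 0)
    (E : (5 : ℤ) * (6 * (6 - -1)) * (2 ^ k * c) ^ 2 = (2 ^ k * g) * (6 - v) ^ 2) : False := by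
  obtain ⟨j, rfl⟩ := Nat.exists_eq_add_of_le hk
  obtain ⟨u, rfl⟩ := hg
  have h0 : (2 : ℤ) ^ (2 + j) ≠ 0 := by positivity
  rcases hv with rfl | rfl
  · have : (210 : ℤ) * (4 * 2 ^ j * c ^ 2) = (2 * u + 1) * 49 := by
      apply mul_left_cancel₀ h0
      push_cast at E
      linear_combination E
    generalize 2 ^ j * (c : ℤ) ^ 2 = x at this
    omega
  · have : (840 : ℤ) * (2 ^ j * c ^ 2) = (2 * u + 1) * 36 := by
      apply mul_left_cancel₀ h0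
      push_cast at E
      linear_combination E
    generalize 2 ^ j * (c : ℤ) ^ 2 = x at this
    omega

theorem ar2m {p n c : ℕ} (hp : p.Prime) (h3 : 3 < p) (hn : p ∣ n)
    (E : (p : ℤ) * ((2 * p - 1) * (2 * p - 1 - 1)) * c ^ 2 = n * (2 * p - 1 - -1) ^ 2) : p ∣ c := by
  obtain ⟨m, rfl⟩ := hn
  obtain ⟨r, rfl⟩ : ∃ r, p = r + 1 := ⟨p - 1, by omega⟩
  have h1 : (2 * r + 1) * (2 * r) * c ^ 2 = (r + 1) * (4 * m * (r + 1)) := by
    apply Nat.eq_of_mul_eq_mul_left hp.pos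
    zify
    push_cast at E
    linear_combination E
  have h2 : r + 1 ∣ (2 * r + 1) * (2 * r) * c ^ 2 := ⟨_, h1⟩
  rcases (Nat.Prime.dvd_mul hp).mp h2 with h | h
  · exfalso
    have h4 : r + 1 ∣ 2 := by
      have : (2 * r + 1) * (2 * r) = (r + 1) * (4 * r - 2) + 2 := by
        obtain ⟨s, rfl⟩ : ∃ s, r = s + 1 := ⟨r - 1, by omega⟩
        rw [show 4 * (s + 1) - 2 = 4 * s + 2 by omega]; ring
      rw [this] at h
      exact (Nat.dvd_add_right (Dvd.intro _ rfl)).mp h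
    have := Nat.le_of_dvd two_pos h4
    omega
  · exact hp.dvd_of_dvd_pow h

theorem ar2p {r n c : ℕ} (h3 : 0 < r)
    (E : ((r + 1 : ℕ) : ℤ) * ((2 * (r + 1 : ℕ) - 1) * (2 * (r + 1 : ℕ) - 1 - 1)) * c ^ 2 =
      n * (2 * (r + 1 : ℕ) - 1 - 1) ^ 2) : (r + 1) * (2 * r + 1) * c ^ 2 = n * (2 * r) := by
  apply Nat.eq_of_mul_eq_mul_left (show 0 < 2 * r by omega)
  zify
  push_cast at E
  linear_combination E

theorem ar2s {r k c g : ℕ} (hr : Even r) (hc : Odd c) (hg : Odd g)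
    (E : (r + 1) * (2 * r + 1) * (2 ^ k * c) ^ 2 = 2 ^ k * g * (2 * r)) :
    2 ^ k ∣ 2 * r ∧ ¬ 2 ^ k ∣ r := by
  have h1 : (r + 1) * (2 * r + 1) * c ^ 2 * 2 ^ k = g * (2 * r) := by
    apply Nat.eq_of_mul_eq_mul_left (show 0 < 2 ^ k by positivity)
    linear_combination E
  refine ⟨((Nat.coprime_two_left.mpr hg).pow_left k).dvd_of_dvd_mul_left (h1 ▸ Dvd.intro_left _ rfl), ?_⟩
  rintro ⟨m, hm⟩
  have h2 : (r + 1) * (2 * r + 1) * c ^ 2 = 2 * (g * m) := by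
    apply Nat.eq_of_mul_eq_mul_right (show 0 < 2 ^ k by positivity)
    rw [h1]; nth_rewrite 1 [hm]; ring
  have h3 : Odd ((r + 1) * (2 * r + 1) * c ^ 2) :=
    (hr.add_one.mul (odd_two_mul_add_one r)).mul hc.pow
  rw [h2] at h3
  exact absurd h3 (by simp)

theorem ar2d {r n c : ℕ} (E : (r + 1) * (2 * r + 1) * c ^ 2 = n * (2 * r)) : 2 * r + 1 ∣ n :=
  Nat.Coprime.dvd_of_dvd_mul_right (by simp) (E ▸ (Dvd.intro_left _ rfl).mul_right _)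

theorem ar2b {r n c : ℕ} (hr : 3 ≤ r) (hc : 4 ≤ c) (hn : n < 64)
    (E : (r + 1) * (2 * r + 1) * c ^ 2 = n * (2 * r)) : False := by
  have h1 : 16 ≤ c ^ 2 := by nlinarith
  have h2 := Nat.mul_le_mul_left ((r + 1) * (2 * r + 1)) h1
  have h3 := Nat.mul_le_mul_right (2 * r) hn.le
  nlinarith

theorem ar2q {r n q : ℕ} (hr : 3 ≤ r) (hd : 2 * r + 1 ∣ n) (hn : 2 * n = q * (q ^ 2 - 1))
    (hq : q = r + 1 ∨ q = 2 * (r + 1) + 1) : False := by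
  obtain ⟨m, rfl⟩ := hd
  have q1 : 1 ≤ q ^ 2 := Nat.one_le_pow _ _ (by omega)
  zify [q1] at hn
  rcases hq with rfl | rfl
  · have : (2 * r + 1 : ℤ) ∣ 3 := ⟨4 * r ^ 2 + 10 * r + 3 - 16 * m, by
      push_cast at hn; linear_combination 8 * hn⟩
    have := Int.le_of_dvd (by norm_num) this
    omega
  · have : (2 * r + 1 : ℤ) ∣ 6 := ⟨2 * m - ((2 * r + 1) ^ 2 + 6 * (2 * r + 1) + 11), by
      push_cast at hn; linear_combination (-1) * hn⟩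
    have := Int.le_of_dvd (by norm_num) this
    omega

theorem ar9 {q l a : ℕ} {r : ℤ} (hl : l.Prime) (hq : q = l ^ a) (h3 : 3 < q)
    (E : (q : ℤ) = 3 * (r * (2 * r + 1))) : q = 9 := by
  have h1 : q = 3 * (r.natAbs * (2 * r + 1).natAbs) := by
    have := congrArg Int.natAbs E
    simpa [Int.natAbs_mul] using this
  have h2 : Nat.Coprime r.natAbs (2 * r + 1).natAbs :=
    Int.isCoprime_iff_gcd_eq_one.mp ⟨-2, 1, by ring⟩
  obtain ⟨x, -, hx⟩ := (Nat.dvd_prime_pow hl).mp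
    (show r.natAbs ∣ l ^ a from hq ▸ h1 ▸ (Dvd.intro _ rfl).mul_left 3)
  obtain ⟨y, -, hy⟩ := (Nat.dvd_prime_pow hl).mp
    (show (2 * r + 1).natAbs ∣ l ^ a from hq ▸ h1 ▸ (Dvd.intro_left _ rfl).mul_left 3)
  have h4 : r.natAbs = 1 ∨ (2 * r + 1).natAbs = 1 := by
    rcases Nat.eq_zero_or_pos x with rfl | x0
    · exact Or.inl hx
    rcases Nat.eq_zero_or_pos y with rfl | y0
    · exact Or.inr hy
    exact absurd (Nat.eq_one_of_dvd_coprimes h2 (hx ▸ dvd_pow_self l x0.ne')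
      (hy ▸ dvd_pow_self l y0.ne')) hl.one_lt.ne'
  have h5 : r = 1 ∨ r = -1 ∨ r = 0 := by omega
  rcases h5 with rfl | rfl | rfl <;> omega

theorem ar3a {r n c s : ℕ} (hr : 3 ≤ r) (h3 : ¬ 3 ∣ r + 1) (hn : 3 ∣ n) (hs : s ∣ c)
    (hs3 : Nat.Coprime s 3) (s1 : s ≤ 3 * r + 2) (hb : n < s ^ 3) (c0 : 0 < c)
    (E : ((r + 1 : ℕ) : ℤ) * ((3 * (r + 1 : ℕ) - 1) * (3 * (r + 1 : ℕ) - 1 - 1)) * c ^ 2 =
      n * (3 * (r + 1 : ℕ) - 1 - ((1 : ℕ) - 1)) ^ 2) : False := by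
  have h1 : (r + 1) * (3 * r + 1) * c ^ 2 = n * (3 * r + 2) := by
    apply Nat.eq_of_mul_eq_mul_left (show 0 < 3 * r + 2 by omega)
    zify
    push_cast at E
    linear_combination E
  have h2 : 3 ∣ c := by
    have : 3 ∣ (r + 1) * (3 * r + 1) * c ^ 2 := h1 ▸ hn.mul_right _
    rcases (Nat.Prime.dvd_mul Nat.prime_three).mp this with h | h
    · rcases (Nat.Prime.dvd_mul Nat.prime_three).mp h with h | h <;> omega
    · exact Nat.prime_three.dvd_of_dvd_pow h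
  have h4 := Nat.le_of_dvd c0 (hs3.mul_dvd_of_dvd_of_dvd hs h2)
  have h5 := Nat.mul_le_mul_left ((r + 1) * (3 * r + 1)) (Nat.pow_le_pow_left h4 2)
  have h6 := Nat.mul_lt_mul_of_pos_right hb (show 0 < 3 * r + 2 by omega)
  have h7 : s ^ 2 * ((r + 1) * (3 * r + 1) * 9) < s ^ 2 * (s * (3 * r + 2)) := by
    calc _ = (r + 1) * (3 * r + 1) * (s * 3) ^ 2 := by ring
      _ < s ^ 3 * (3 * r + 2) := h5.trans_lt (h1 ▸ h6)
      _ = _ := by ring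
  have h8 := Nat.lt_of_mul_lt_mul_left h7
  have h9 := Nat.mul_le_mul_right (3 * r + 2) s1
  nlinarith

theorem ar3p {r n c : ℕ}
    (E : ((r + 1 : ℕ) : ℤ) * ((3 * (r + 1 : ℕ) - 1) * (3 * (r + 1 : ℕ) - 1 - 1)) * c ^ 2 =
      n * (3 * (r + 1 : ℕ) - 1 - ((3 : ℕ) - 1)) ^ 2) :
    (r + 1) * ((3 * r + 2) * (3 * r + 1)) * c ^ 2 = n * (3 * r) ^ 2 := by
  zify
  push_cast at E
  linear_combination E

theorem ar3s {r k c g : ℕ} (r0 : 0 < r) (hr : Even r) (hk : 2 ≤ k) (hc : Odd c) (hg : Odd g)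
    (E : (r + 1) * ((3 * r + 2) * (3 * r + 1)) * (2 ^ k * c) ^ 2 = 2 ^ k * g * (3 * r) ^ 2) :
    ¬ 2 ^ k ∣ 3 * r ∧ (2 ^ k ∣ 2 * (3 * r) → 2 ^ k ∣ 8) := by
  obtain ⟨a, o, ho, rfl⟩ := Nat.exists_eq_two_pow_mul_odd r0.ne'
  have h1 : (2 ^ a * o + 1) * ((3 * (2 ^ a * o) + 2) * (3 * (2 ^ a * o) + 1)) * c ^ 2 * 2 ^ k =
      2 ^ (2 * a) * (g * (3 * o) ^ 2) := by
    apply Nat.eq_of_mul_eq_mul_left (show 0 < 2 ^ k by positivity)
    linear_combination E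
  have o3 : Odd (3 * o) := Odd.mul (by decide) ho
  have o1 : Odd (g * (3 * o) ^ 2) := hg.mul o3.pow
  have a0 : a ≠ 0 := by
    rintro rfl
    exact (Nat.not_even_iff_odd.mpr ho) (by simpa using hr)
  have a1 : a ≠ 1 := by
    rintro rfl
    obtain ⟨j, rfl⟩ := ho
    have := two_pow_le (x := k + 2) (y := 2 * 1) ⟨(2 ^ 1 * (2 * j + 1) + 1) * ((3 * j + 2) *
      (3 * (2 ^ 1 * (2 * j + 1)) + 1)) * c ^ 2, by rw [← h1]; ring⟩ o1
    omega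
  obtain ⟨b, rfl⟩ : ∃ b, a = b + 2 := ⟨a - 2, by omega⟩
  have h2 : 2 ^ (k + 1) * ((2 * (2 ^ (b + 1) * o) + 1) * ((2 * (3 * (2 ^ b * o)) + 1) *
      (2 * (3 * (2 ^ (b + 1) * o)) + 1)) * c ^ 2) = 2 ^ (2 * (b + 2)) * (g * (3 * o) ^ 2) := by
    rw [← h1]; ring
  have h3 := two_pow_le (h2 ▸ Dvd.intro _ rfl) o1
  have h4 := two_pow_le (h2.symm ▸ Dvd.intro _ rfl) (((odd_two_mul_add_one _).mul
    ((odd_two_mul_add_one _).mul (odd_two_mul_add_one _))).mul hc.pow)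
  refine ⟨fun h => ?_, fun h => ?_⟩
  · have := two_pow_le (y := b + 2) (h.trans ⟨1, by ring⟩) o3
    omega
  · have := two_pow_le (y := b + 3) (h.trans ⟨1, by ring⟩) o3
    exact pow_dvd_pow 2 (show k ≤ 3 by omega)

theorem ar3d {r n c : ℕ} (E : (r + 1) * ((3 * r + 2) * (3 * r + 1)) * c ^ 2 = n * (3 * r) ^ 2) :
    3 * r + 1 ∣ n :=
  Nat.Coprime.dvd_of_dvd_mul_right (Nat.Coprime.pow_right 2 (by simp))
    (E ▸ ((Dvd.intro_left _ rfl).mul_left _).mul_right _)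

theorem ar3q {r n q : ℕ} (hr : 3 ≤ r) (he : Even r) (hd : 3 * r + 1 ∣ n) (hn : 2 * n = q * (q ^ 2 - 1))
    (hq : q = r + 1 ∨ q = 2 * (r + 1) + 1 ∨ q + 1 = 2 * (r + 1)) : False := by
  obtain ⟨m, rfl⟩ := hd
  have q1 : 1 ≤ q ^ 2 := Nat.one_le_pow _ _ (by omega)
  zify [q1] at hn
  rcases hq with rfl | rfl | h
  · have : (3 * r + 1 : ℤ) ∣ 10 := ⟨(3 * r + 1) ^ 2 + 6 * (3 * r + 1) + 3 - 54 * m, by
      push_cast at hn; linear_combination (27) * hn⟩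
    obtain ⟨j, rfl⟩ := he
    have := Int.le_of_dvd (by norm_num) this
    omega
  · have h1 : (3 * r + 1 : ℤ) ∣ 280 := ⟨54 * m - (8 * (3 * r + 1) ^ 2 + 84 * (3 * r + 1) + 276), by
      push_cast at hn; linear_combination (-27) * hn⟩
    obtain ⟨j, rfl⟩ := he
    have h2 : 3 * (j + j) + 1 ∣ 280 := by exact_mod_cast h1
    have := Nat.le_of_dvd (by norm_num) h2
    have h3 : j ≤ 47 := by omega
    interval_cases j <;> omega
  · obtain rfl : q = 2 * r + 1 := by omega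
    have : (3 * r + 1 : ℤ) ∣ 8 := ⟨8 * (3 * r + 1) ^ 2 + 12 * (3 * r + 1) - 12 - 54 * m, by
      push_cast at hn; linear_combination (27) * hn⟩
    have := Int.le_of_dvd (by norm_num) this
    omega

theorem ar57 {p : ℕ} (hp : p.Prime) (h3 : 3 < p) (h : p ∣ 2520) : p = 5 ∨ p = 7 := by
  rw [show 2520 = 2 ^ 3 * (3 ^ 2 * (5 * 7)) by norm_num] at h
  rcases (Nat.Prime.dvd_mul hp).mp h with h | h
  · have := Nat.le_of_dvd two_pos (hp.dvd_of_dvd_pow h); omega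
  rcases (Nat.Prime.dvd_mul hp).mp h with h | h
  · have := Nat.le_of_dvd three_pos (hp.dvd_of_dvd_pow h); omega
  rcases (Nat.Prime.dvd_mul hp).mp h with h | h
  · exact Or.inl ((Nat.prime_dvd_prime_iff_eq hp (by norm_num)).mp h)
  · exact Or.inr ((Nat.prime_dvd_prime_iff_eq hp (by norm_num)).mp h)

end Cfsg.Agent.Gp.TP
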